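import Cfsg.Agent.R2.T1.T2p.Msk
import Cfsg.Agent.R2.T1.T2p.GenA
import Cfsg.Agent.StandardComponent.AltAut
import Cfsg.Agent.E8A.Two.Iface2

/-!
# Boxes TB, TC: permutations (helper43)

* `sf σ`, `cj σ`, `cj_P` : conjugation of the elements `P n l`; `ct_P`;
* `Ok n l`, `exists_sf`, `exists_new`, `decomp`, `perm_inv`;
* `xs`, `sum_xs` : sums in elementary abelian 2-groups;
* `exists_perm` : the elements of `H` act as permutations; `gen3`.
-/

set_option autoImplicit false

namespace Cfsg.Agent.E8A.TwoH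

open Equiv Equiv.Perm
open Cfsg.Agent.R2.T1.Odd Cfsg.Agent.R2.T1.Msk
open Cfsg.Agent.H952.F4 (MaxAlt)

section

variable {n : ℕ}

/-- conjugation by a permutation -/
def cj (σ : Perm (Fin n)) : Alt n →* Alt n := (MulAut.conjNormal σ : MulAut (Alt n)).toMonoidHom

theorem coe_cj (σ : Perm (Fin n)) (a : Alt n) : (cj σ a : Perm (Fin n)) = σ * a * σ⁻¹ := rfl

theorem cj_coe (a b : Alt n) : cj (a : Perm (Fin n)) b = a * b * a⁻¹ := rfl

theorem ct_cj (σ : Perm (Fin n)) (a : Alt n) : (cj σ a : Perm (Fin n)).cycleType = (a : Perm (Fin n)).cycleType :=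
  cycleType_conj

/-- lists of different points -/
def Ok (n : ℕ) (l : List ℕ) : Prop := l.Nodup ∧ ∀ a ∈ l, a < n

theorem Ok.perm {l l' : List ℕ} (h : Ok n l) (hp : l.Perm l') : Ok n l' :=
  ⟨hp.nodup_iff.1 h.1, fun a ha => h.2 a (hp.mem_iff.2 ha)⟩

theorem ok_perm {l l' : List ℕ} (hp : l.Perm l') : Ok n l ↔ Ok n l' := ⟨fun h => h.perm hp, fun h => h.perm hp.symm⟩

theorem Ok.sub {l l' : List ℕ} (h : Ok n l) (hs : l'.Sublist l) : Ok n l' :=
  ⟨hs.nodup h.1, fun a ha => h.2 a (hs.subset ha)⟩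

theorem Ok.cons {l : List ℕ} (h : Ok n l) {p : ℕ} (hp : p < n) (hl : p ∉ l) : Ok n (p :: l) :=
  ⟨List.nodup_cons.2 ⟨hl, h.1⟩, fun a ha => by
    rcases List.mem_cons.1 ha with rfl | ha
    exacts [hp, h.2 a ha]⟩

theorem ok_of {m : ℕ} (hm : m ≤ n) {l : List ℕ} (h : (decide l.Nodup && l.all fun a => Nat.blt a m) = true) : Ok n l := by
  rw [Bool.and_eq_true, decide_eq_true_iff, List.all_eq_true] at h
  exact ⟨h.1, fun a ha => (Nat.blt_eq.mp (h.2 a ha)).trans_le hm⟩

theorem exists_new (l : List ℕ) (h : l.length < n) : ∃ p < n, p ∉ l := by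
  by_contra hc
  push Not at hc
  have h1 : Finset.range n ⊆ l.toFinset := fun p hp => List.mem_toFinset.2 (hc p (Finset.mem_range.1 hp))
  have h2 := Finset.card_le_card h1
  have h3 := List.toFinset_card_le l
  rw [Finset.card_range] at h2
  omega

theorem decomp {q q' : List ℕ} (h : Ok n q) (h' : Ok n q') :
    ∃ i r r' : List ℕ, q.Perm (i ++ r) ∧ q'.Perm (i ++ r') ∧ Ok n (i ++ r ++ r') := by
  have h1 := (List.filter_append_perm (fun a => decide (a ∈ q')) q).symm
  have h2 := (List.filter_append_perm (fun a => decide (a ∈ q)) q').symm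
  have h3 : (q'.filter fun a => decide (a ∈ q)).Perm (q.filter fun a => decide (a ∈ q')) :=
    (List.perm_ext_iff_of_nodup (h'.1.filter _) (h.1.filter _)).2 fun a => by simp [and_comm]
  refine ⟨_, _, _, h1, h2.trans (h3.append_right _), ?_, fun a ha => ?_⟩
  · refine List.Nodup.append (h1.nodup_iff.1 h.1) (h'.1.filter _) fun a ha hb => ?_
    have h4 := h1.mem_iff.2 ha
    simp [h4] at hb
  · rcases List.mem_append.1 ha with ha | ha
    · exact h.2 a (h1.mem_iff.2 ha)
    · exact h'.2 a (List.mem_of_mem_filter ha)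

theorem perm_inv {α β : Type*} {F : List α → β} (h : ∀ p x y l, F (p ++ x :: y :: l) = F (p ++ y :: x :: l))
    {l l' : List α} (hp : l.Perm l') : F l = F l' := by
  have key : ∀ p, F (p ++ l) = F (p ++ l') := by
    induction hp with
    | nil => exact fun _ => rfl
    | cons x _ ih => exact fun p => by simpa using ih (p ++ [x])
    | swap x y l => exact fun p => h p y x l
    | trans _ _ ih1 ih2 => exact fun p => (ih1 p).trans (ih2 p)
  exact key []

/-- the parities of the multiplicities -/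
def xs : List ℕ → ℕ
  | [] => 0
  | k :: l => Nat.xor (2 ^ k) (xs l)

theorem sum_xs {W : Type*} [AddCommGroup W] (h2 : ∀ w : W, w + w = 0) (F : ℕ → W) {l : List ℕ} (h : xs l = 0) :
    (l.map F).sum = 0 := by
  have key : ∀ N, ∀ l : List ℕ, (∀ k ∈ l, k < N) → (l.map F).sum = sumM ((List.range N).map F) (xs l) := by
    intro N l hl
    induction l with
    | nil => exact (sumM_zero _).symm
    | cons k l ih =>
      have hk := hl k List.mem_cons_self
      rw [List.map_cons, List.sum_cons, ih fun j hj => hl j (List.mem_cons_of_mem _ hj)]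
      show _ = sumM _ (2 ^ k ^^^ xs l)
      rw [sumM_xor h2, sumM_pow, List.getD_eq_getElem _ _ (by simpa using hk), List.getElem_map, List.getElem_range]
  rw [key (l.sum + 1) l fun k hk => Nat.lt_succ_of_le (List.le_sum_of_mem hk), h, sumM_zero]

/-- **the elements of `H` act on `A_n` as permutations** -/
theorem exists_perm {G : Type*} [Group G] {H : Subgroup G} {φ : Alt n →* G} (hn : 7 ≤ n) (hM : MaxAlt H n φ) {h : G}
    (hh : h ∈ H) : ∃ σ : Perm (Fin n), ∀ a, h * φ a * h⁻¹ = φ (cj σ a) := by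
  have hex : ∀ a, ∃ b, φ b = h * φ a * h⁻¹ := fun a => hM.norm h hh _ ⟨a, rfl⟩
  choose f hf using hex
  let e0 : Alt n →* Alt n := MonoidHom.mk' f fun a b => hM.inj (by
    rw [hf, map_mul, map_mul, hf, hf]; group)
  have he0 : ∀ a, φ (e0 a) = h * φ a * h⁻¹ := hf
  have hinj : Function.Injective e0 := by
    intro a b hab
    apply hM.inj
    have h1 : h * φ a * h⁻¹ = h * φ b * h⁻¹ := by rw [← he0, ← he0, hab]
    exact mul_left_cancel (mul_right_cancel h1)
  let e : MulAut (Alt n) := MulEquiv.ofBijective e0 (Finite.injective_iff_bijective.1 hinj)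
  obtain ⟨ψ, hψ⟩ := Cfsg.Agent.StandardComponent.AltAut.exists_autHom n hn
  refine ⟨ψ e, fun a => ?_⟩
  rw [← he0]
  exact congrArg φ (Subtype.ext (hψ e a))

variable [NeZero n]

/-- a permutation as a function on the natural numbers -/
def sf (σ : Perm (Fin n)) (j : ℕ) : ℕ := (σ (Fin.ofNat n j)).val

theorem ofNat_val (i : Fin n) : Fin.ofNat n i.val = i := Fin.ext (val_ofNat' i.2)

theorem sf_lt (σ : Perm (Fin n)) (j : ℕ) : sf σ j < n := Fin.is_lt _

theorem sf_val (σ : Perm (Fin n)) (i : Fin n) : sf σ i.val = (σ i).val := by rw [sf, ofNat_val]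

theorem sf_inj (σ : Perm (Fin n)) {a b : ℕ} (ha : a < n) (hb : b < n) (h : sf σ a = sf σ b) : a = b :=
  ofNat_inj ha hb (σ.injective (Fin.ext h))

theorem sf_mul (σ τ : Perm (Fin n)) (j : ℕ) : sf (σ * τ) j = sf σ (sf τ j) := by
  rw [sf, sf, sf, ofNat_val]
  rfl

theorem sf_one {j : ℕ} (hj : j < n) : sf (1 : Perm (Fin n)) j = j := val_ofNat' hj

theorem Ok.map {l : List ℕ} (h : Ok n l) (σ : Perm (Fin n)) : Ok n (l.map (sf σ)) :=
  ⟨h.1.map_on fun a ha b hb => sf_inj σ (h.2 a ha) (h.2 b hb), fun a ha => by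
    obtain ⟨b, -, rfl⟩ := List.mem_map.1 ha
    exact sf_lt σ b⟩

/-- the image of a list of transpositions -/
def ml (f : ℕ → ℕ) (l : List (ℕ × ℕ)) : List (ℕ × ℕ) := l.map fun x => (f x.1, f x.2)

theorem ml_nil (f : ℕ → ℕ) : ml f [] = [] := rfl

theorem ml_cons (f : ℕ → ℕ) (a b : ℕ) (l : List (ℕ × ℕ)) : ml f ((a, b) :: l) = (f a, f b) :: ml f l := rfl

theorem pm_ml (σ : Perm (Fin n)) (l : List (ℕ × ℕ)) : pm n (ml (sf σ) l) = σ * pm n l * σ⁻¹ := by
  induction l with
  | nil => rw [ml_nil, pm_nil, mul_one, mul_inv_cancel]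
  | cons x l ih =>
    rw [ml_cons, pm_cons, pm_cons, ih, sf, sf, ofNat_val, ofNat_val, swap_apply_apply]
    group

theorem cj_P (σ : Perm (Fin n)) (l : List (ℕ × ℕ)) : cj σ (P n l) = P n (ml (sf σ) l) := by
  apply Subtype.ext
  rw [coe_cj]
  by_cases h : pm n l ∈ alternatingGroup (Fin n)
  · have h1 : pm n (ml (sf σ) l) ∈ alternatingGroup (Fin n) := by
      rw [pm_ml]
      exact Subgroup.Normal.conj_mem inferInstance _ h σ
    rw [P, P, dif_pos h, dif_pos h1]
    exact (pm_ml σ l).symm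
  · have h1 : pm n (ml (sf σ) l) ∉ alternatingGroup (Fin n) := fun h1 => h (by
      rw [pm_ml] at h1
      simpa [mul_assoc] using Subgroup.Normal.conj_mem inferInstance _ h1 σ⁻¹)
    rw [P, P, dif_neg h, dif_neg h1]
    simp

theorem conj_P (a : Alt n) (l : List (ℕ × ℕ)) : a * P n l * a⁻¹ = P n (ml (sf (a : Perm (Fin n))) l) := cj_P _ l

theorem sf_P {m : ℕ} (hm : m ≤ n) {l : List (ℕ × ℕ)} (h : vl m l = true) {j : ℕ} (hj : j < n) :
    sf (P n l : Perm (Fin n)) j = ap l j := by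
  rw [sf, coe_P hm h, pm_apply ((vl_iff.1 h).2.mono hm), val_ofNat' hj]

theorem exists_sf {l : List ℕ} (h : Ok n l) : ∃ σ : Perm (Fin n), (List.range l.length).map (sf σ) = l := by
  have hl : l.length ≤ n := by
    have h1 := Finset.card_le_card (s := l.toFinset) (t := Finset.range n) fun a ha =>
      Finset.mem_range.2 (h.2 a (List.mem_toFinset.1 ha))
    rwa [List.toFinset_card_of_nodup h.1, Finset.card_range] at h1
  obtain ⟨σ, hσ⟩ := Perm.exists_extending_pair (fun j : Fin l.length => Fin.castLE hl j)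
    (fun j => (⟨l[j], h.2 _ (List.getElem_mem _)⟩ : Fin n)) (Fin.castLE_injective hl) fun i j hij =>
      Fin.ext ((h.1.getElem_inj_iff).1 (Fin.mk.inj hij))
  refine ⟨σ, List.ext_getElem (by simp) fun j h1 h2 => ?_⟩
  rw [List.getElem_map, List.getElem_range]
  exact (sf_val σ (Fin.castLE hl ⟨j, h2⟩)).trans (congrArg Fin.val (hσ ⟨j, h2⟩))

theorem exists_sf_even {l : List ℕ} (h : Ok n l) (hl : l.length + 2 ≤ n) :
    ∃ a : Alt n, (List.range l.length).map (sf (a : Perm (Fin n))) = l := by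
  obtain ⟨σ, hσ⟩ := exists_sf h
  rcases Int.units_eq_one_or (sign σ) with e | e
  · exact ⟨⟨σ, mem_alternatingGroup.2 e⟩, hσ⟩
  · have hne : Fin.ofNat n l.length ≠ Fin.ofNat n (l.length + 1) := fun e' => by
      have := ofNat_inj (by omega) (by omega) e'
      omega
    refine ⟨⟨σ * swap (Fin.ofNat n l.length) (Fin.ofNat n (l.length + 1)), mem_alternatingGroup.2 (by
      rw [Perm.sign_mul, e, sign_swap hne]; rfl)⟩, Eq.trans (List.map_congr_left fun j hj => ?_) hσ⟩
    have hj' := List.mem_range.1 hj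
    show (σ (swap _ _ (Fin.ofNat n j))).val = _
    rw [swap_apply_of_ne_of_ne (fun e' => by have := ofNat_inj (by omega) (by omega) e'; omega)
      (fun e' => by have := ofNat_inj (by omega) (by omega) e'; omega)]
    rfl

theorem ok_sf (σ : Perm (Fin n)) {l : List ℕ} (hl : ∀ a ∈ l, a < n) : Ok n (l.map (sf σ)) ↔ Ok n l :=
  ⟨fun h => ⟨h.1.of_map _, hl⟩, fun h => h.map σ⟩

omit [NeZero n] in
theorem ap_out {l : List (ℕ × ℕ)} {j : ℕ} (h : ∀ x ∈ l, j ≠ x.1 ∧ j ≠ x.2) : ap l j = j := by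
  induction l with
  | nil => rfl
  | cons x l ih =>
    have h1 := h x List.mem_cons_self
    show (if Nat.beq (ap l j) x.1 then x.2 else if Nat.beq (ap l j) x.2 then x.1 else ap l j) = j
    rw [ih fun y hy => h y (List.mem_cons_of_mem _ hy), if_neg (nb' h1.1), if_neg (nb' h1.2)]

omit [NeZero n] in
theorem cj_surj (σ : Perm (Fin n)) : Function.Surjective (cj σ) :=
  (MulAut.conjNormal σ : MulAut (Alt n)).surjective

theorem ct_P (hn : 8 ≤ n) {l : List (ℕ × ℕ)} (h : vl 8 l = true) :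
    ((P n l : Alt n) : Perm (Fin n)).cycleType = (pm 8 l).cycleType := by
  have h1 := (vl_iff.1 h).2
  have h2 : pm n l = (pm 8 l).extendDomain (Fin.castLEOrderIso hn).toEquiv := by
    refine Perm.ext fun i => Fin.ext ?_
    rw [pm_apply (h1.mono hn)]
    by_cases hi : (i : ℕ) < 8
    · rw [Perm.extendDomain_apply_subtype _ _ (b := i) hi]
      show _ = ((pm 8 l ⟨i, hi⟩ : Fin 8) : ℕ)
      rw [pm_apply h1]
    · rw [Perm.extendDomain_apply_not_subtype _ _ (b := i) hi, ap_ge h1 (by omega)]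
  rw [coe_P hn h, h2, Perm.cycleType_extendDomain]

theorem P_mul {m : ℕ} (hm : m ≤ n) {a b c : List (ℕ × ℕ)}
    (h : (vl m a && vl m b && vl m c && cd m (a ++ b) == cd m c) = true) : P n a * P n b = P n c := by
  simp only [Bool.and_eq_true, beq_iff_eq] at h
  obtain ⟨⟨⟨h1, h2⟩, h3⟩, h5⟩ := h
  rw [← P_append hm h1 h2, P_eq_iff hm (vl_append h1 h2) h3]
  exact h5

theorem P_eq {m : ℕ} (hm : m ≤ n) {a c : List (ℕ × ℕ)} (h : (vl m a && vl m c && cd m a == cd m c) = true) :
    P n a = P n c := by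
  simp only [Bool.and_eq_true, beq_iff_eq] at h
  exact (P_eq_iff hm h.1.1 h.1.2).2 h.2

theorem P_inv {m : ℕ} (hm : m ≤ n) {a c : List (ℕ × ℕ)} (h : (vl m a && vl m c && cd m (a ++ c) == cd m []) = true) :
    (P n a)⁻¹ = P n c := by
  simp only [Bool.and_eq_true, beq_iff_eq] at h
  rw [inv_eq_iff_mul_eq_one, ← P_append hm h.1.1 h.1.2, ← P_nil, P_eq_iff hm (vl_append h.1.1 h.1.2) rfl]
  exact h.2

theorem P_comm {m : ℕ} (hm : m ≤ n) {a b : List (ℕ × ℕ)}
    (h : (vl m a && vl m b && cd m (a ++ b) == cd m (b ++ a)) = true) : Commute (P n a) (P n b) := by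
  simp only [Bool.and_eq_true, beq_iff_eq] at h
  show _ * _ = _ * _
  rw [← P_append hm h.1.1 h.1.2, ← P_append hm h.1.2 h.1.1, P_eq_iff hm (vl_append h.1.1 h.1.2) (vl_append h.1.2 h.1.1)]
  exact h.2

theorem P_conj' {m : ℕ} (hm : m ≤ n) {a b c : List (ℕ × ℕ)}
    (h : (vl m a && vl m b && vl m c && cd m (a ++ b) == cd m (c ++ a)) = true) : P n a * P n b * (P n a)⁻¹ = P n c := by
  simp only [Bool.and_eq_true, beq_iff_eq] at h
  obtain ⟨⟨⟨h1, h2⟩, h3⟩, h5⟩ := h
  rw [mul_inv_eq_iff_eq_mul, ← P_append hm h1 h2, ← P_append hm h3 h1, P_eq_iff hm (vl_append h1 h2) (vl_append h3 h1)]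
  exact h5

/-- generation by the 3-cycles through two points -/
theorem gen3 (S : Subgroup (Alt n)) {a b : ℕ} (hab : Ok n [a, b])
    (h : ∀ k, Ok n [a, b, k] → P n [(a, b), (a, k)] ∈ S) (x : Alt n) : x ∈ S := by
  have ha : a < n := hab.2 a (by simp)
  have hb : b < n := hab.2 b (by simp)
  have hne : a ≠ b := by simpa using hab.1
  refine R2.T1.T2p.gen_alt S (fun _ => True) (p0 := Fin.ofNat n a) (p1 := Fin.ofNat n b) (fun e => hne (ofNat_inj ha hb e))
    trivial (fun k _ hk y hy => ?_) x fun i hi => absurd trivial hi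
  by_cases e : k = Fin.ofNat n b
  · rw [e, swap_mul_self] at hy
    rw [show y = 1 from Subtype.ext hy]
    exact one_mem S
  · have h1 : a ≠ k.val := fun e' => hk (by rw [e', ofNat_val])
    have h2 : b ≠ k.val := fun e' => e (by rw [e', ofNat_val])
    have h3 : y = P n [(a, b), (a, k.val)] := by
      apply Subtype.ext
      rw [hy, coe_P le_rfl (vl_iff.2 ⟨by simp, by simp [En, ha, hb, hne, h1]⟩), pm_cons, pm_cons, pm_nil, mul_one, ofNat_val]
    rw [h3]
    exact h _ ⟨by simp [hne, h1, h2], by simp [ha, hb]⟩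

end

end Cfsg.Agent.E8A.TwoH
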