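import Cfsg.Agent.E8A.TwoH.Perm

/-!
# Box TC: identities in the group algebras of `A₄`, `A₅` over the field with two elements (helper43)

* `gT` : the ten 3-cycles on `0, …, 4` up to inversion; `cc ρ i` : the sum of a 3-cycle and its inverse;
* `two_le` : a module `V` with `dim V^t ≥ 6`, `dim V^s ≤ 2`; `rk_le_one`, `ne_zero`; `cc_br`.
-/

set_option autoImplicit false
set_option maxRecDepth 100000

namespace Cfsg.Agent.E8A.TwoH

open Module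
open Cfsg.Agent.R2.T1.Odd Cfsg.Agent.R2.T1.Msk

section lin

variable {K W : Type*} [Field K] [AddCommGroup W] [Module K W] [FiniteDimensional K W]

theorem half {f : W →ₗ[K] W} {X : Submodule K W} (h1 : X.map f ≤ X) (h2 : ∀ v, f (f v) = 0) :
    2 * finrank K (X.map f) ≤ finrank K X := by
  have h3 := LinearMap.finrank_range_add_finrank_ker (f.domRestrict X)
  rw [LinearMap.range_domRestrict, LinearMap.ker_domRestrict, ← Submodule.finrank_map_subtype_eq X,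
    Submodule.map_comap_subtype] at h3
  have h4 : X.map f ≤ X ⊓ LinearMap.ker f := le_inf h1 (by
    rintro _ ⟨v, -, rfl⟩
    exact h2 v)
  have h5 := Submodule.finrank_mono h4
  omega

theorem fr_sup (X Y : Submodule K W) : finrank K (X ⊔ Y : Submodule K W) ≤ finrank K X + finrank K Y := by
  have h := Submodule.finrank_sup_add_finrank_inf_eq X Y
  omega

end lin

/-- the 3-cycles -/
def gT : List (List (ℕ × ℕ)) := [[(0, 1), (1, 2)], [(0, 1), (1, 3)], [(0, 2), (2, 3)], [(1, 2), (2, 3)], [(0, 1), (1, 4)],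
  [(0, 2), (2, 4)], [(0, 3), (3, 4)], [(1, 2), (2, 4)], [(1, 3), (3, 4)], [(2, 3), (3, 4)]]

/-- the cosets of a 3-cycle in `A₅` -/
def D5 : Dat where
  gens := gT
  zt := [(0, 1), (1, 2)]
  reps := [[], [(0, 1), (1, 3)], [(1, 2), (2, 3)], [(0, 1), (1, 4)], [(0, 3), (3, 4)], [(1, 2), (2, 4)], [(1, 3), (3,
    4)], [(2, 3), (3, 4)], [(0, 2), (2, 3), (0, 1), (1, 3)], [(0, 1), (1, 4), (0, 1), (1, 3)], [(0, 2), (2, 4),
    (0, 1), (1, 3)], [(1, 2), (2, 4), (0, 1), (1, 3)], [(2, 3), (3, 4), (0, 1), (1, 3)], [(1, 2), (2, 4), (1, 2),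
    (2, 3)], [(2, 3), (3, 4), (1, 2), (2, 3)], [(0, 2), (2, 4), (0, 1), (1, 4)], [(0, 3), (3, 4), (0, 1), (1, 4)],
    [(0, 3), (3, 4), (0, 3), (3, 4)], [(1, 3), (3, 4), (1, 3), (3, 4)], [(2, 3), (3, 4), (2, 3), (3, 4)]]
  tab := [[(0, 1), (2, 1), (8, 0), (5, 1), (6, 1), (15, 0), (7, 1), (4, 1), (1, 2), (13, 1), (11, 0), (14, 0), (9, 2),
    (12, 0), (10, 0), (3, 2), (16, 2), (18, 1), (19, 1), (17, 1)], [(1, 0), (2, 2), (0, 1), (11, 1), (6, 0), (17,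
    1), (16, 0), (7, 1), (8, 2), (5, 2), (13, 2), (18, 2), (14, 1), (19, 1), (15, 0), (12, 2), (4, 0), (9, 0), (3,
    0), (10, 0)], [(1, 2), (8, 0), (2, 1), (12, 0), (7, 0), (11, 0), (6, 2), (16, 2), (0, 1), (14, 2), (15, 0),
    (13, 2), (19, 1), (5, 1), (18, 2), (17, 1), (4, 1), (10, 2), (9, 2), (3, 2)], [(2, 0), (1, 2), (8, 1), (9, 2),
    (4, 1), (14, 0), (7, 0), (16, 1), (0, 2), (10, 2), (3, 2), (12, 2), (17, 2), (15, 1), (19, 0), (18, 2), (6,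
    2), (11, 2), (13, 0), (5, 0)], [(3, 0), (9, 0), (4, 1), (5, 2), (11, 1), (0, 1), (1, 0), (12, 0), (10, 2), (6,
    0), (13, 1), (2, 1), (14, 2), (8, 0), (7, 1), (15, 2), (17, 0), (18, 0), (16, 0), (19, 1)], [(3, 2), (10, 0),
    (9, 2), (15, 0), (12, 2), (5, 1), (11, 0), (1, 2), (4, 1), (14, 0), (7, 1), (13, 1), (8, 0), (6, 2), (2, 1),
    (0, 1), (17, 1), (19, 0), (18, 2), (16, 2)], [(4, 0), (3, 0), (9, 1), (16, 0), (17, 0), (6, 1), (11, 1), (12,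
    2), (10, 0), (18, 0), (19, 1), (5, 1), (15, 0), (13, 2), (14, 1), (7, 1), (1, 0), (0, 0), (2, 2), (8, 2)],
    [(5, 0), (11, 0), (13, 0), (3, 2), (9, 1), (15, 1), (14, 0), (2, 0), (6, 2), (10, 0), (4, 2), (12, 1), (1, 2),
    (7, 0), (8, 1), (0, 2), (18, 2), (17, 1), (19, 0), (16, 1)], [(6, 0), (11, 1), (5, 0), (4, 0), (9, 0), (16,
    1), (18, 0), (14, 0), (13, 2), (3, 0), (10, 1), (17, 2), (12, 2), (19, 0), (15, 1), (7, 2), (2, 2), (1, 0),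
    (0, 0), (8, 1)], [(7, 0), (12, 0), (14, 0), (4, 1), (10, 2), (6, 0), (13, 0), (19, 0), (15, 0), (9, 2), (3,
    0), (11, 1), (17, 1), (5, 0), (18, 0), (16, 0), (8, 0), (1, 2), (2, 0), (0, 0)]]

/-- the group `A₄`, with the generators of `A₅`; only the first four rows of the table are used -/
def D4 : Dat where
  gens := gT.take 4
  zt := []
  reps := [[], [(0, 1), (1, 2)], [(0, 1), (1, 3)], [(0, 2), (2, 3)], [(1, 2), (2, 3)], [(0, 1), (1, 2), (0, 1), (1, 2)],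
    [(0, 1), (1, 3), (0, 1), (1, 2)], [(1, 2), (2, 3), (0, 1), (1, 2)], [(0, 1), (1, 3), (0, 1), (1, 3)], [(0, 2),
    (2, 3), (0, 1), (1, 3)], [(0, 2), (2, 3), (0, 2), (2, 3)], [(1, 2), (2, 3), (1, 2), (2, 3)]]
  tab := [[(1, 0), (5, 0), (7, 0), (4, 0), (9, 0), (0, 0), (8, 0), (11, 0), (10, 0), (3, 0), (6, 0), (2, 0)], [(2, 0),
    (6, 0), (8, 0), (7, 0), (1, 0), (3, 0), (4, 0), (5, 0), (0, 0), (10, 0), (11, 0), (9, 0)], [(3, 0), (2, 0),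
    (9, 0), (10, 0), (7, 0), (6, 0), (11, 0), (8, 0), (4, 0), (1, 0), (0, 0), (5, 0)], [(4, 0), (7, 0), (3, 0),
    (6, 0), (11, 0), (8, 0), (2, 0), (10, 0), (9, 0), (5, 0), (1, 0), (0, 0)]]

theorem chk5 : D5.chk 5 = true := by decide +kernel

theorem chk4 : D4.chk 5 = true := by decide +kernel

/-- the words -/
def wA : List (List ℕ) := [[], [2, 1]]
def wB : List (List ℕ) := [[], [3, 0]]
def w3 : List (List ℕ) := [[], [0], [0, 0]]
def w2 (i : ℕ) : List (List ℕ) := [[i], [i, i]]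
def w8 : List (List ℕ) := w2 0 ++ w2 1 ++ w2 2 ++ w2 3
def w20 : List (List ℕ) := w8 ++ w2 4 ++ w2 5 ++ w2 6 ++ w2 7 ++ w2 8 ++ w2 9
def w5 : List (List ℕ) := [[], [6, 0], [6, 0, 6, 0], [6, 0, 6, 0, 6, 0], [6, 0, 6, 0, 6, 0, 6, 0]]

variable {n : ℕ} [NeZero n] {K W : Type*} [Field K] [AddCommGroup W] [Module K W] {ρ : Representation K (Alt n) W}

theorem Op_append (gens : List (List (ℕ × ℕ))) (ws ws' : List (List ℕ)) (v : W) :
    Op ρ gens (ws ++ ws') v = Op ρ gens ws v + Op ρ gens ws' v := by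
  unfold Op
  rw [List.map_append, List.sum_append, LinearMap.add_apply]

theorem Op_mem {m : ℕ} (hm : m ≤ n) {gens : List (List (ℕ × ℕ))} (hg : gens.all (vl m) = true) {V : Submodule K W}
    (hV : ∀ g ∈ gens, ∀ u ∈ V, ρ (P n g) u ∈ V) (ws : List (List ℕ)) {u : W} (hu : u ∈ V) : Op ρ gens ws u ∈ V := by
  have h1 : ∀ w : List ℕ, ρ (P n (wd gens w)) u ∈ V := by
    intro w
    induction w with
    | nil => rwa [wd_nil, P_nil, map_one]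
    | cons i w ih =>
      rw [wd_cons, P_append hm (vl_getD hg i) (vl_wd hg w), map_mul, Module.End.mul_apply]
      by_cases hi : i < gens.length
      · exact hV _ (by rw [List.getD_eq_getElem _ _ hi]; exact List.getElem_mem _) _ ih
      · rwa [List.getD_eq_default _ _ (not_lt.1 hi), P_nil, map_one]
  induction ws with
  | nil => exact zero_mem V
  | cons w ws ih => rw [Op_cons]; exact add_mem (h1 w) ih

variable (hn : 5 ≤ n) (h2 : ∀ w : W, w + w = 0)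
include hn h2

theorem ev4 (v : W) (ws : List (List ℕ)) (hw : wok D4 ws = true) (a : ℕ) :
    Op ρ D4.gens ws (sumM (gv ρ D4 v) a) = sumM (gv ρ D4 v) (sms D4.tab ws a) :=
  eval hn h2 chk4 (by rw [show D4.zt = [] from rfl, P_nil, map_one]; rfl) hw a

omit hn h2 in
theorem one4 (v : W) : sumM (gv ρ D4 v) 1 = v := sumM_one rfl

theorem AA (v : W) : Op ρ gT wA (Op ρ gT wA v) = 0 := by
  show Op ρ D4.gens wA (Op ρ D4.gens wA v) = 0
  rw [← one4 (ρ := ρ) v, ev4 hn h2 v _ rfl, ev4 hn h2 v _ rfl]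
  exact (congrArg _ (by decide +kernel)).trans (sumM_zero _)

theorem BB (v : W) : Op ρ gT wB (Op ρ gT wB v) = 0 := by
  show Op ρ D4.gens wB (Op ρ D4.gens wB v) = 0
  rw [← one4 (ρ := ρ) v, ev4 hn h2 v _ rfl, ev4 hn h2 v _ rfl]
  exact (congrArg _ (by decide +kernel)).trans (sumM_zero _)

theorem AB (v : W) : Op ρ gT wA (Op ρ gT wB v) = Op ρ gT wB (Op ρ gT wA v) := by
  show Op ρ D4.gens wA (Op ρ D4.gens wB v) = Op ρ D4.gens wB (Op ρ D4.gens wA v)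
  rw [← one4 (ρ := ρ) v, ev4 hn h2 v _ rfl, ev4 hn h2 v _ rfl, ev4 hn h2 v _ rfl, ev4 hn h2 v _ rfl]
  exact congrArg _ (by decide +kernel)

theorem c8_eq (v : W) : Op ρ gT w8 v = Op ρ gT wA (Op ρ gT wB (Op ρ gT (w2 0) v)) := by
  show Op ρ D4.gens w8 v = Op ρ D4.gens wA (Op ρ D4.gens wB (Op ρ D4.gens (w2 0) v))
  rw [← one4 (ρ := ρ) v, ev4 hn h2 v _ rfl, ev4 hn h2 v _ rfl, ev4 hn h2 v _ rfl, ev4 hn h2 v _ rfl]
  exact congrArg _ (by decide +kernel)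

theorem p3_c8 (v : W) : Op ρ gT w3 (Op ρ gT w8 v) = 0 := by
  show Op ρ D4.gens w3 (Op ρ D4.gens w8 v) = 0
  rw [← one4 (ρ := ρ) v, ev4 hn h2 v _ rfl, ev4 hn h2 v _ rfl]
  exact (congrArg _ (by decide +kernel)).trans (sumM_zero _)

theorem p3_N (v : W) : Op ρ gT w3 (Op ρ gT wA (Op ρ gT wB (Op ρ gT w3 v))) = Op ρ gT wA (Op ρ gT wB (Op ρ gT w3 v)) := by
  show Op ρ D4.gens w3 (Op ρ D4.gens wA (Op ρ D4.gens wB (Op ρ D4.gens w3 v))) =
    Op ρ D4.gens wA (Op ρ D4.gens wB (Op ρ D4.gens w3 v))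
  rw [← one4 (ρ := ρ) v, ev4 hn h2 v _ rfl, ev4 hn h2 v _ rfl, ev4 hn h2 v _ rfl, ev4 hn h2 v _ rfl]
  exact congrArg _ (by decide +kernel)

theorem cc_br (v : W) : Op ρ gT (w2 0) (Op ρ gT (w2 1) v) + Op ρ gT (w2 1) (Op ρ gT (w2 0) v) =
    Op ρ gT (w2 3) v + Op ρ gT (w2 2) v := by
  show Op ρ D4.gens (w2 0) (Op ρ D4.gens (w2 1) v) + Op ρ D4.gens (w2 1) (Op ρ D4.gens (w2 0) v) =
    Op ρ D4.gens (w2 3) v + Op ρ D4.gens (w2 2) v
  rw [← one4 (ρ := ρ) v, ev4 hn h2 v _ rfl, ev4 hn h2 v _ rfl, ev4 hn h2 v _ rfl, ev4 hn h2 v _ rfl,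
    ev4 hn h2 v _ rfl, ev4 hn h2 v _ rfl, ← sumM_xor h2, ← sumM_xor h2]
  exact congrArg _ (by decide +kernel)

variable (ρ) in
/-- the operator -/
noncomputable def MM : W →ₗ[K] W := Op ρ gT wA ∘ₗ Op ρ gT wB ∘ₗ Op ρ gT w3 ∘ₗ Op ρ gT w20

theorem cert {v : W} (hv : ρ (P n [(0, 1), (1, 2)]) v = v) :
    v = Op ρ gT [[2], [5, 5], [8, 5]] (Op ρ gT w5 (Op ρ gT [[8, 8]] v)) + Op ρ gT [[3, 0]] (MM ρ (Op ρ gT [[6, 4]] v)) +
      Op ρ gT [[6, 6]] (MM ρ (Op ρ gT [[3]] v)) := by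
  have e : ∀ ws, wok D5 ws = true → ∀ a, Op ρ gT ws (sumM (gv ρ D5 v) a) = sumM (gv ρ D5 v) (sms D5.tab ws a) :=
    fun ws hw a => eval hn h2 chk5 hv hw a
  have h1 : sumM (gv ρ D5 v) 1 = v := sumM_one rfl
  simp only [MM, LinearMap.comp_apply]
  rw [← h1, e _ rfl, e _ rfl, e _ rfl, e _ rfl, e _ rfl, e _ rfl, e _ rfl, e _ rfl, e _ rfl, e _ rfl, e _ rfl, e _ rfl,
    e _ rfl, e _ rfl, e _ rfl, ← sumM_xor h2, ← sumM_xor h2]
  exact congrArg _ (by decide +kernel)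

omit h2 in
theorem s_fix (v : W) : ρ (P n (wd gT [6, 0])) (Op ρ gT w5 v) = Op ρ gT w5 v := by
  have e : ∀ a b : List ℕ, (vl 5 (wd gT [6, 0]) && vl 5 (wd gT a) && vl 5 (wd gT b) &&
      cd 5 (wd gT [6, 0] ++ wd gT a) == cd 5 (wd gT b)) = true →
      ρ (P n (wd gT [6, 0])) (ρ (P n (wd gT a)) v) = ρ (P n (wd gT b)) v := fun a b h => by
    rw [← Module.End.mul_apply, ← map_mul, P_mul hn h]
  simp only [w5, Op_cons, Op_nil, LinearMap.zero_apply, map_add, add_zero]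
  rw [e [] [6, 0] (by decide), e [6, 0] [6, 0, 6, 0] (by decide), e [6, 0, 6, 0] [6, 0, 6, 0, 6, 0] (by decide),
    e [6, 0, 6, 0, 6, 0] [6, 0, 6, 0, 6, 0, 6, 0] (by decide), e [6, 0, 6, 0, 6, 0, 6, 0] [] (by decide)]
  abel

variable [FiniteDimensional K W] {V : Submodule K W} (hV : ∀ g ∈ gT, ∀ u ∈ V, ρ (P n g) u ∈ V)
include hV

theorem two_le {V3 V5 : Submodule K W} (h3 : ∀ v ∈ V3, v ∈ V ∧ ρ (P n [(0, 1), (1, 2)]) v = v)
    (h5 : ∀ v ∈ V, ρ (P n (wd gT [6, 0])) v = v → v ∈ V5) (d3 : 6 ≤ finrank K V3) (d5 : finrank K V5 ≤ 2) :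
    2 ≤ finrank K (V.map (MM ρ)) := by
  have hO := fun ws u => Op_mem (u := u) hn (by decide) hV ws
  have h1 : V3 ≤ V5.map (Op ρ gT [[2], [5, 5], [8, 5]]) ⊔ (V.map (MM ρ)).map (Op ρ gT [[3, 0]]) ⊔
      (V.map (MM ρ)).map (Op ρ gT [[6, 6]]) := by
    intro v hv
    obtain ⟨k1, k2⟩ := h3 v hv
    rw [cert hn h2 k2]
    exact Submodule.add_mem_sup (Submodule.add_mem_sup ⟨_, h5 _ (hO _ _ (hO _ _ k1)) (s_fix hn _), rfl⟩
      ⟨_, ⟨_, hO _ _ k1, rfl⟩, rfl⟩) ⟨_, ⟨_, hO _ _ k1, rfl⟩, rfl⟩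
  have k1 := Submodule.finrank_mono h1
  have k2 := fr_sup (V5.map (Op ρ gT [[2], [5, 5], [8, 5]]) ⊔ (V.map (MM ρ)).map (Op ρ gT [[3, 0]]))
    ((V.map (MM ρ)).map (Op ρ gT [[6, 6]]))
  have k3 := fr_sup (V5.map (Op ρ gT [[2], [5, 5], [8, 5]])) ((V.map (MM ρ)).map (Op ρ gT [[3, 0]]))
  have k4 := Submodule.finrank_map_le (Op ρ gT [[2], [5, 5], [8, 5]]) V5
  have k5 := Submodule.finrank_map_le (Op ρ gT [[3, 0]]) (V.map (MM ρ))
  have k6 := Submodule.finrank_map_le (Op ρ gT [[6, 6]]) (V.map (MM ρ))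
  omega

theorem rk_le_one (d : finrank K V ≤ 14) (h : 2 ≤ finrank K (V.map (MM ρ))) : finrank K (V.map (Op ρ gT w8)) ≤ 1 := by
  have hO := fun ws u => Op_mem (u := u) hn (by decide) hV ws
  have k1 := half (X := V) (f := Op ρ gT wB) (by
    rintro _ ⟨v, hv, rfl⟩
    exact hO _ _ hv) (BB hn h2)
  have k2 := half (X := V.map (Op ρ gT wB)) (f := Op ρ gT wA) (by
    rintro _ ⟨_, ⟨v, hv, rfl⟩, rfl⟩
    exact ⟨_, hO _ _ hv, (AB hn h2 v).symm⟩) (AA hn h2)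
  have k3 : V.map (MM ρ) ⊔ V.map (Op ρ gT w8) ≤ (V.map (Op ρ gT wB)).map (Op ρ gT wA) := by
    refine sup_le ?_ ?_
    · rintro _ ⟨v, hv, rfl⟩
      exact ⟨_, ⟨_, hO w3 _ (hO w20 _ hv), rfl⟩, rfl⟩
    · rintro _ ⟨v, hv, rfl⟩
      exact ⟨_, ⟨_, hO _ _ hv, rfl⟩, (c8_eq hn h2 v).symm⟩
  have k4 : V.map (MM ρ) ⊓ V.map (Op ρ gT w8) = ⊥ := by
    rw [eq_bot_iff]
    rintro _ ⟨⟨v, -, rfl⟩, ⟨w, -, e⟩⟩
    have h1 := p3_c8 (ρ := ρ) hn h2 w
    rw [e] at h1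
    exact (p3_N hn h2 _).symm.trans h1
  have k5 := Submodule.finrank_sup_add_finrank_inf_eq (V.map (MM ρ)) (V.map (Op ρ gT w8))
  have k6 := Submodule.finrank_mono k3
  rw [k4, finrank_bot] at k5
  omega

omit hn h2 hV [FiniteDimensional K W] in
theorem c20_ne (h : 2 ≤ finrank K (V.map (MM ρ))) : ¬ ∀ v ∈ V, Op ρ gT w20 v = 0 := by
  intro h0
  have h1 : V.map (MM ρ) = ⊥ := by
    rw [eq_bot_iff]
    rintro _ ⟨v, hv, rfl⟩
    simp only [MM, LinearMap.comp_apply, h0 v hv, map_zero]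
    exact Submodule.zero_mem _
  rw [h1, finrank_bot] at h
  omega

end Cfsg.Agent.E8A.TwoH
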