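import Cfsg.Agent.E8A.TwoH.Word
import Cfsg.Agent.E8A.Reg5.End
import Cfsg.Agent.E8A.Par.Main

/-!
# The box TC (helper43)

* `lang` : Lang's map in a finite group; `hx_frq`; `Z_inj`; `no_rel`; `tca`.
-/

set_option autoImplicit false
set_option maxRecDepth 100000

namespace Cfsg.Agent.E8A.TwoH

open Cfsg Cfsg.Lie Module Equiv
open Cfsg.Agent.R2.T1.Odd Cfsg.Agent.R2.T1.Msk
open Cfsg.Agent.H952.F4 (MaxAlt)
open Cfsg.Agent.E8A.Two

universe u

theorem lang {G Y : Type*} [Group G] [Group Y] {e : G →* Y} {σ : Y →* Y} (hfix : ∀ y, σ y = y → ∃ x, e x = y)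
    (hfin : ∀ c : Y, ∃ T : Subgroup Y, Finite T ∧ c ∈ T ∧ ∀ t ∈ T, σ t ∈ T) {C : Subgroup Y} (hC : ∀ c ∈ C, σ c ∈ C)
    (h1 : ∀ x, e x ∈ C → x = 1) {g : Y} (hg : (σ g)⁻¹ * g ∈ C) : ∃ x, ∃ c ∈ C, e x = g * c := by
  obtain ⟨T, hT, hc, hTs⟩ := hfin ((σ g)⁻¹ * g)
  have : Finite ↥(T ⊓ C) := Finite.of_injective _ (Subgroup.inclusion_injective (inf_le_left : T ⊓ C ≤ T))
  let L : ↥(T ⊓ C) → ↥(T ⊓ C) := fun x =>
    ⟨(σ x.1)⁻¹ * x.1, mul_mem (inv_mem (show σ x.1 ∈ T ⊓ C from ⟨hTs _ x.2.1, hC _ x.2.2⟩)) x.2⟩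
  have key : ∀ x y : Y, (σ x)⁻¹ * x = (σ y)⁻¹ * y → ∃ w : G, e w = x * y⁻¹ := fun x y h => by
    apply hfix
    rw [map_mul, map_inv]
    calc σ x * (σ y)⁻¹ = σ x * ((σ y)⁻¹ * y) * y⁻¹ := by group
      _ = x * y⁻¹ := by rw [← h]; group
  have hL : Function.Injective L := by
    intro x y h
    obtain ⟨w, hw⟩ := key x y (congrArg Subtype.val h)
    rw [h1 w (hw ▸ (mul_mem x.2 (inv_mem y.2)).2), map_one, eq_comm, mul_inv_eq_one] at hw
    exact Subtype.ext hw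
  obtain ⟨x, hx⟩ := Finite.surjective_of_injective hL ⟨_, hc, hg⟩
  obtain ⟨y, hy⟩ := key g x (congrArg Subtype.val hx).symm
  exact ⟨y, _, inv_mem x.2.2, hy⟩

variable {F : Type u} [Field F] [Finite F]

theorem hx_frq {x : G8 (Kb F)} {z : L8 (Kb F)} (H : Hx x z) : Hx (sg x) (frq z) where
  ne := fun e => H.ne (mp_injective (fq F) (by rw [← frq_eq, e, mp_zero]))
  fix := by rw [← frq_act, H.fix]
  cen := fun v hv => by
    have h1 : ∀ i, ∃ a, fq F a = v i := fun i => by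
      obtain ⟨a, ha⟩ := IsAlgClosed.exists_pow_nat_eq (v i) (Nat.card_pos (α := F))
      exact ⟨a, (fq_apply a).trans ha⟩
    choose w hw using h1
    obtain rfl : frq w = v := (frq_eq w).trans (funext hw)
    rw [← frq_act, frq_eq, frq_eq] at hv
    rw [frq_eq, frq_eq, br_mp, H.cen w (mp_injective _ hv), mp_zero]
  idem := by rw [frq_eq, adm_mp, ← Matrix.map_mul, H.idem]

variable (F) in
/-- rational vectors -/
def Ra (x : ℕ → Kb F) : Prop := ∀ i, fq F (x i) = x i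

theorem ra_dl (a : ℕ) : Ra F (dl _ a) := fun i => by
  rw [dl, Pi.single_apply]
  split_ifs
  exacts [map_one _, map_zero _]

theorem Ra.add {x y : ℕ → Kb F} (hx : Ra F x) (hy : Ra F y) : Ra F (x + y) := fun i => by
  rw [Pi.add_apply, map_add, hx, hy]

theorem ra_M0 (a : ℕ) : Ra F (M0 (dl _ a)) := by
  rcases lt_or_ge a 6 with h | h
  · rw [M0_lt h]
    exact (ra_dl _).add ((((((ra_dl 0).add (ra_dl 1)).add (ra_dl 2)).add (ra_dl 3)).add (ra_dl 4)).add (ra_dl 5))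
  · rw [M0_ge h]
    exact ra_dl a

variable {n : ℕ} [NeZero n] {ψ : Alt n →* G8 (Kb F)}

theorem frq_bt (h : ∀ i j, frq (Z ψ 0 i j) = Z ψ 0 i j) {x y : ℕ → Kb F} (hx : Ra F x) (hy : Ra F y) :
    frq (bt ψ x y) = bt ψ x y := by
  have h1 : ∀ (f : Fin n → L8 (Kb F)), mp (fq F) (∑ i, f i) = ∑ i, mp (fq F) (f i) := fun f =>
    map_sum (AddMonoidHom.mk' (mp (fq F)) (mp_add _)) f _
  rw [bt_apply, frq_eq, h1]
  refine Finset.sum_congr rfl fun i _ => ?_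
  rw [h1]
  exact Finset.sum_congr rfl fun j _ => by rw [mp_smul, mp_smul, hx, hy, ← frq_eq, h]

omit [Finite F] in
theorem Z_or (a b c : ℕ) : (a < n ∧ b < n ∧ c < n) ∨ Z ψ a b c = 0 := by
  by_cases ho : Ok n [a, b, c]
  · exact Or.inl (by simpa using ho.2)
  · exact Or.inr (Z_not ho)

variable (ψ) in
/-- the sum over a list of triples -/
noncomputable def SZ (L : List (ℕ × ℕ × ℕ)) : L8 (Kb F) := (L.map fun t => Z ψ t.1 t.2.1 t.2.2).sum

/-- the image of a list of triples -/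
def m3 (l : List (ℕ × ℕ)) (L : List (ℕ × ℕ × ℕ)) : List (ℕ × ℕ × ℕ) := L.map fun t => (ap l t.1, ap l t.2.1, ap l t.2.2)

/-- the entries are small -/
def lt8 (L : List (ℕ × ℕ × ℕ)) : Bool := L.all fun t => Nat.blt t.1 8 && Nat.blt t.2.1 8 && Nat.blt t.2.2 8

/-- the code of a pair -/
def cp (a b : ℕ) : ℕ := if a < b then 8 * a + b else 8 * b + a

/-- the codes of a list of triples -/
def c3 (L : List (ℕ × ℕ × ℕ)) : List ℕ := L.flatMap fun t => [cp t.1 t.2.1, cp t.1 t.2.2, cp t.2.1 t.2.2]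

theorem lt8_cons {t : ℕ × ℕ × ℕ} {L : List (ℕ × ℕ × ℕ)} (h : lt8 (t :: L) = true) :
    (t.1 < 8 ∧ t.2.1 < 8 ∧ t.2.2 < 8) ∧ lt8 L = true := by
  simpa [lt8, Nat.blt_eq, and_assoc] using h

/-- the fixed vector -/
def U0 : List (ℕ × ℕ × ℕ) :=
  [(0, 1, 2), (0, 1, 3), (0, 2, 3), (1, 2, 3), (0, 1, 4), (0, 2, 4), (0, 3, 4), (1, 2, 4), (1, 3, 4), (2, 3, 4), (5, 6, 7)]

/-- the relation -/
def R0 : List (ℕ × ℕ × ℕ) := [(2, 3, 7), (2, 3, 6), (2, 3, 0), (2, 3, 1), (2, 3, 4), (2, 3, 5)]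

variable [CharP F 2]

namespace HC

variable (h : HC ψ)
include h

theorem Z_inj {a b c a' b' c' : ℕ} (ho : Ok n [a, b, c]) (ha : a' < n) (hb : b' < n) (hc : c' < n)
    (e : Z ψ a b c = Z ψ a' b' c') : a = a' ∨ a = b' ∨ a = c' := by
  have hn := h.hn
  by_contra hne
  obtain ⟨y, hy, hy'⟩ := exists_new (n := n) [a, b, c, a', b', c'] (by simp; omega)
  obtain ⟨w, hw, hw'⟩ := exists_new (n := n) [y, a, b, c, a', b', c'] (by simp; omega)
  have h1 := ho.1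
  have h2 := ho.2
  simp only [List.mem_cons, List.not_mem_nil, or_false, not_or, List.nodup_cons, forall_eq_or_imp, forall_eq] at *
  have hl : vl n [(a, y), (y, w)] = true := vl_iff.2 ⟨by simp, by simp [En]; grind⟩
  have h3 := congrArg (act (ψ (P n [(a, y), (y, w)]))) e
  have h4 : ap [(a, y), (y, w)] a = y := by
    simp only [ap, nb]
    grind
  rw [h.Z_P le_rfl hl h2.1 h2.2.1 h2.2.2, h.Z_P le_rfl hl ha hb hc, h4, ap_out, ap_out, ap_out, ap_out, ap_out, ← e,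
    h.sw1 b y, h.sw2 b c, h.sw1 b a, h.sw2 b c] at h3
  · exact h.Z_ne ⟨by simp; grind, by simp; grind⟩ h3
  all_goals
    simp
    grind

theorem SZ_act {l : List (ℕ × ℕ)} (hl : vl 8 l = true) {L : List (ℕ × ℕ × ℕ)} (hL : lt8 L = true) :
    act (ψ (P n l)) (SZ ψ L) = SZ ψ (m3 l L) := by
  have hn := h.hn
  induction L with
  | nil => exact act_zero _
  | cons t L ih =>
    obtain ⟨h1, h2⟩ := lt8_cons hL
    show act _ (Z ψ _ _ _ + SZ ψ L) = Z ψ _ _ _ + SZ ψ (m3 l L)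
    rw [act_add, ih h2, h.Z_P hn hl] <;> omega

theorem SZ_zero {L : List (ℕ × ℕ × ℕ)} (hL : (lt8 L && xs (c3 L) == 0) = true) : SZ ψ L = 0 := by
  have := charKb (F := F)
  have hn := h.hn
  rw [Bool.and_eq_true, beq_iff_eq] at hL
  have h1 : ∀ a < 8, ∀ b < 8, Z ψ 0 a b = Z ψ 0 (cp a b / 8) (cp a b % 8) := fun a ha b hb => by
    rw [cp]
    split_ifs
    · rw [show (8 * a + b) / 8 = a by omega, show (8 * a + b) % 8 = b by omega]
    · rw [show (8 * b + a) / 8 = b by omega, show (8 * b + a) % 8 = a by omega, h.sw2]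
  rw [← sum_xs two_L (fun m => Z ψ 0 (m / 8) (m % 8)) hL.2]
  replace hL := hL.1
  induction L with
  | nil => rfl
  | cons t L ih =>
    obtain ⟨⟨k1, k2, k3⟩, h2⟩ := lt8_cons hL
    show Z ψ _ _ _ + SZ ψ L = Z ψ _ _ _ + (Z ψ _ _ _ + (Z ψ _ _ _ + (List.map _ (c3 L)).sum))
    rw [ih h2, ← h1 _ k1 _ k2, ← h1 _ k1 _ k3, ← h1 _ k2 _ k3, h.Z_Y] <;> first | omega | abel

theorem no8 (hn : n = 8) (e : SZ ψ R0 = 0) : False := by
  have := charKb (F := F)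
  have h1 : SZ ψ U0 = 0 := h.nf _ fun x => by
    refine gen3 ((stab (SZ ψ U0)).comap ψ) (a := 0) (b := 1) (ok_of h.hn (by decide)) (fun k hk => ?_) x
    show act (ψ _) _ = _
    have hk' : k < 8 := hn ▸ hk.2 k (by simp)
    have hk3 : 0 ≠ k ∧ 1 ≠ k := by simpa using hk.1
    have h2 : ∀ k < 8, 2 ≤ k → vl 8 [(0, 1), (0, k)] = true ∧
        ((lt8 (m3 [(0, 1), (0, k)] U0 ++ U0) && xs (c3 (m3 [(0, 1), (0, k)] U0 ++ U0)) == 0) = true ∨
        vl 8 [(1, 2), (3, k)] = true ∧ (lt8 (m3 [(0, 1), (0, k)] U0 ++ U0 ++ m3 [(1, 2), (3, k)] R0) &&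
          xs (c3 (m3 [(0, 1), (0, k)] U0 ++ U0 ++ m3 [(1, 2), (3, k)] R0)) == 0) = true) := by decide +kernel
    obtain ⟨k1, k2 | ⟨k2, k3⟩⟩ := h2 k hk' (by omega)
    · have h3 := h.SZ_zero k2
      rw [SZ, List.map_append, List.sum_append] at h3
      rw [h.SZ_act k1 (by decide)]
      exact eq_of_add_L h3
    · have h3 := h.SZ_zero k3
      have h4 := h.SZ_act k2 (L := R0) (by decide)
      rw [e, act_zero, SZ] at h4
      rw [SZ, List.map_append, List.map_append, List.sum_append, List.sum_append, ← h4, add_zero] at h3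
      rw [h.SZ_act k1 (by decide)]
      exact eq_of_add_L h3
  refine h.zeta (eq_of_add_L ?_)
  simpa only [SZ, U0, List.map_cons, List.sum_cons, List.map_nil, List.sum_nil, add_zero, add_assoc] using h1

theorem no_rel {p : ℕ} (h6 : 6 ≤ p) (hp : p < n)
    (e : Z ψ 2 3 p = Z ψ 2 3 6 + (Z ψ 2 3 0 + Z ψ 2 3 1 + Z ψ 2 3 4 + Z ψ 2 3 5)) : False := by
  have := charKb (F := F)
  have hn := h.hn
  rcases (by omega : p = 6 ∨ (p = 7 ∧ n = 8) ∨ (7 ≤ p ∧ 9 ≤ n)) with rfl | ⟨rfl, h8⟩ | ⟨h7, h9⟩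
  · have h1 := left_eq_add.1 e
    have h2 := congrArg (act (ψ (P n [(0, 6), (4, 5)]))) h1
    rw [act_add, act_add, act_add, act_zero, h.Z_P hn, h.Z_P hn, h.Z_P hn, h.Z_P hn] at h2 <;>
      try first | omega | decide
    replace h2 : Z ψ 2 3 6 + Z ψ 2 3 1 + Z ψ 2 3 5 + Z ψ 2 3 4 = 0 := h2
    exact h.Z_ne (a := 2) (b := 3) (c := 0) (d := 6) (ok_of hn (by decide)) (by linear_combination (exp := 1) h1 - h2)
  · refine h.no8 h8 ?_
    simp only [SZ, R0, List.map_cons, List.sum_cons, List.map_nil, List.sum_nil, add_zero]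
    linear_combination (exp := 1) e + two_L (Z ψ 2 3 6 + (Z ψ 2 3 0 + Z ψ 2 3 1 + Z ψ 2 3 4 + Z ψ 2 3 5))
  · obtain ⟨q, hq, hq'⟩ := exists_new (n := n) [0, 1, 2, 3, 4, 5, 6, p] (by simp; omega)
    simp only [List.mem_cons, List.not_mem_nil, or_false, not_or] at hq'
    replace hq' : 7 ≤ q ∧ q ≠ p := ⟨by omega, hq'.2.2.2.2.2.2.2⟩
    have hl : vl n [(p, q), (4, 5)] = true := vl_iff.2 ⟨by simp, by simp [En]; omega⟩
    have h1 : ∀ j, j < 4 ∨ j = 6 → ap [(p, q), (4, 5)] j = j := fun j hj => ap_out (by simp; omega)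
    have h3 : ap [(p, q), (4, 5)] p = q ∧ ap [(p, q), (4, 5)] 4 = 5 ∧ ap [(p, q), (4, 5)] 5 = 4 := by
      simp only [ap, nb]
      refine ⟨?_, ?_, ?_⟩ <;> split_ifs <;> omega
    have h2 := congrArg (act (ψ (P n [(p, q), (4, 5)]))) e
    rw [act_add, act_add, act_add, act_add, h.Z_P le_rfl hl, h.Z_P le_rfl hl, h.Z_P le_rfl hl, h.Z_P le_rfl hl,
      h.Z_P le_rfl hl, h.Z_P le_rfl hl, h3.1, h3.2.1, h3.2.2, h1 2, h1 3, h1 6, h1 0, h1 1] at h2 <;> try omega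
    exact h.Z_ne (a := 2) (b := 3) (c := p) (d := q) ⟨by simp; omega, by simp; omega⟩
      (by linear_combination (exp := 1) e - h2)

theorem no_perm {σ : Perm (Fin n)} (e : ∀ a b c, a < n → b < n → c < n →
    Z ψ (sf σ a) (sf σ b) (sf σ c) = bt ψ (M0 (dl _ a + dl _ b)) (M0 (dl _ b + dl _ c))) : False := by
  have := charKb (F := F)
  have hn := h.hn
  have h2 : ∀ x y z : ℕ → Kb F, x + z + (y + z) = x + y := fun x y z => by
    funext i
    simp only [Pi.add_apply]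
    linear_combination z i * CharTwo.two_eq_zero (R := Kb F)
  have e1 : ∀ a b c, a < 6 → b < 6 → c < 6 → Z ψ (sf σ a) (sf σ b) (sf σ c) =
      Z ψ (ap [(0, 1)] a) (ap [(0, 1)] b) (ap [(0, 1)] c) := fun a b c ha hb hc => by
    have e2 : En n [(0, 1)] := by simp [En]; omega
    rw [e a b c, M0_add, M0_add, M0_lt ha, M0_lt hb, M0_lt hc, h2, h2, h.Z_bt] <;> first | omega | exact ap_lt e2 (by omega)
  have ok : ∀ a b c, Ok n [a, b, c] → Ok n [sf σ a, sf σ b, sf σ c] := fun a b c ho => ho.map σ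
  have i1 : ∀ a b c, (decide [a, b, c].Nodup && [a, b, c].all fun a => Nat.blt a 6) = true →
      sf σ a = ap [(0, 1)] a ∨ sf σ a = ap [(0, 1)] b ∨ sf σ a = ap [(0, 1)] c := fun a b c ho => by
    have e2 : En n [(0, 1)] := by simp [En]; omega
    have h3 : a < 6 ∧ b < 6 ∧ c < 6 := by simpa using (ok_of le_rfl ho).2
    exact h.Z_inj (ok _ _ _ (ok_of (by omega) ho)) (ap_lt e2 (by omega)) (ap_lt e2 (by omega)) (ap_lt e2 (by omega))
      (e1 a b c h3.1 h3.2.1 h3.2.2)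
  have j0 : sf σ 0 = 1 ∨ sf σ 0 = 0 ∨ sf σ 0 = 2 := i1 0 1 2 (by decide)
  have j1 : sf σ 1 = 0 ∨ sf σ 1 = 1 ∨ sf σ 1 = 2 := i1 1 0 2 (by decide)
  have j2 : sf σ 2 = 2 ∨ sf σ 2 = 1 ∨ sf σ 2 = 0 := i1 2 0 1 (by decide)
  have j2' : sf σ 2 = 2 ∨ sf σ 2 = 3 ∨ sf σ 2 = 4 := i1 2 3 4 (by decide)
  have j3 : sf σ 3 = 3 ∨ sf σ 3 = 2 ∨ sf σ 3 = 4 := i1 3 2 4 (by decide)
  have j3' : sf σ 3 = 3 ∨ sf σ 3 = 2 ∨ sf σ 3 = 5 := i1 3 2 5 (by decide)
  have j4 : sf σ 4 = 4 ∨ sf σ 4 = 2 ∨ sf σ 4 = 3 := i1 4 2 3 (by decide)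
  have j5 : sf σ 5 = 5 ∨ sf σ 5 = 2 ∨ sf σ 5 = 3 := i1 5 2 3 (by decide)
  have nd := ((ok_of hn (by decide) : Ok n [0, 1, 2, 3, 4, 5, 6]).map σ).1
  simp only [List.map_cons, List.map_nil, List.mem_cons, List.not_mem_nil, or_false, not_or, List.nodup_cons] at nd
  have k2 : sf σ 2 = 2 := by grind
  have k3 : sf σ 3 = 3 := by grind
  have k6 : sf σ 6 ≠ 0 ∧ sf σ 6 ≠ 1 ∧ sf σ 6 ≠ 2 ∧ sf σ 6 ≠ 3 ∧ sf σ 6 ≠ 4 ∧ sf σ 6 ≠ 5 := by grind
  clear j0 j1 j2 j2' j3 j3' j4 j5 nd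
  refine h.no_rel (p := sf σ 6) (by omega) (sf_lt σ 6) ?_
  clear k6
  have h3 := e 2 3 6 (by omega) (by omega) (by omega)
  have h4 : dl (Kb F) 3 + o6 _ + dl _ 6 = dl _ 3 + dl _ 6 + (dl _ 3 + dl _ 0 + (dl _ 3 + dl _ 1) + (dl _ 3 + dl _ 4) +
      (dl _ 3 + dl _ 5) + (dl _ 3 + dl _ 2)) := by
    funext i
    simp only [o6, Pi.add_apply]
    linear_combination (-2 * dl (Kb F) 3 i) * CharTwo.two_eq_zero (R := Kb F)
  have h5 : ∀ x y z, bt ψ x (y + z) = bt ψ x y + bt ψ x z := fun x y z => map_add _ _ _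
  rw [k2, k3, M0_add, M0_add, M0_lt (a := 2), M0_lt (a := 3), M0_ge, h2, show ap [(0, 1)] 2 = 2 from rfl,
    show ap [(0, 1)] 3 = 3 from rfl, h4, h5, h5 _ (_ + _ + _ + _ + _), h5 _ (_ + _ + _ + _),
    h5 _ (_ + _ + _), h5 _ (_ + _) (_ + _), h.Z_bt, h.Z_bt, h.Z_bt, h.Z_bt, h.Z_bt,
    h.Z_bt, Z_13, add_zero] at h3 <;> first | assumption | omega

end HC

/-- **TC** -/
theorem tca : TCa.{u} := by
  intro F _ _ _ H n φ hM hn hf d3 d33 d5
  have := charKb (F := F)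
  have : NeZero n := ⟨by omega⟩
  have hD : ∀ c d, Dm φ c d → Dm ((emb0 (F := F)).comp φ) c d := fun c d hd a ha => (ev_emb0 _).trans (hd a ha)
  have h : HC ((emb0 (F := F)).comp φ) := ⟨hn, hD _ _ d3, hD _ _ d33, hD _ _ d5, Inf.NoFx.em _ hf⟩
  set ψ := (emb0 (F := F)).comp φ with hψ
  have o1 : Ok n [0, 1, 2] := ok_of hn (by decide)
  have hZ : ∀ a b c, frq (Z ψ a b c) = Z ψ a b c := fun a b c => by
    by_cases ho : Ok n [a, b, c]
    · have h1 := hx_frq (h.hxZ ho)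
      rw [show sg (ψ _) = ψ _ from sg_emb0 _] at h1
      exact hx_unique (h.tri ho).1 (Or.inl (h.tri ho).2) h1 (h.hxZ ho)
    · rw [Z_not ho, frq_eq, mp_zero]
  have hP : ∀ k ∈ H, ∃ σ : Perm (Fin n), ∀ a b c, a < n → b < n → c < n →
      act (emb0 k) (Z ψ a b c) = Z ψ (sf σ a) (sf σ b) (sf σ c) := fun k hk => by
    obtain ⟨σ, hσ⟩ := exists_perm (by omega) hM hk
    exact ⟨σ, fun a b c => h.Z_act fun x => by
      rw [hψ, MonoidHom.comp_apply, MonoidHom.comp_apply, ← hσ, map_mul, map_mul, map_inv]⟩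
  have hP' : ∀ k ∈ H, ∀ a b c, ∃ a' b' c', act (emb0 k) (Z ψ a b c) = Z ψ a' b' c' := fun k hk a b c => by
    obtain ⟨σ, hσ⟩ := hP k hk
    rcases Z_or (ψ := ψ) a b c with ⟨ha, hb, hc⟩ | e
    · exact ⟨_, _, _, hσ a b c ha hb hc⟩
    · exact ⟨a, b, c, by rw [e, act_zero]⟩
  let W : Submodule (Kb F) (L8 (Kb F)) := Submodule.span _ (Set.range fun t : ℕ × ℕ × ℕ => Z ψ t.1 t.2.1 t.2.2)
  have hW : ∀ a b c, Z ψ a b c ∈ W := fun a b c => Submodule.subset_span ⟨(a, b, c), rfl⟩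
  have hW' : ∀ g : G8 (Kb F), (∀ a b c, act g (Z ψ a b c) ∈ W) → ∀ w ∈ W, act g w ∈ W := fun g hg =>
    show W ≤ W.comap (LK _ g) from Submodule.span_le.2 (Set.range_subset_iff.2 fun t => hg _ _ _)
  have hS : ∀ g : G8 F, (∀ a b c, act (emb0 g) (Z ψ a b c) ∈ W) → g ∈ H := fun g hg => by
    refine Par.stab_box F H hM.coatom W (fun e => (h.hxZ o1).ne ?_) (fun e => ?_) (fun k hk => hW' _ fun a b c => ?_) g
      (hW' _ hg)
    · have h1 := hW 0 1 2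
      rwa [e] at h1
    · obtain ⟨ζ, -, hω⟩ := HC.exists_roots (F := F)
      obtain ⟨v, hv, hv0⟩ := exists_VV hω (h.cjZ hω o1) (h.hxZ o1)
      have h1 : W ≤ UU (ψ (P n [(0, 1), (1, 2)])) (Z ψ 0 1 2) := Submodule.span_le.2 (Set.range_subset_iff.2 fun t => by
        rcases Z_or (ψ := ψ) t.1 t.2.1 t.2.2 with ⟨ha, hb, hc⟩ | e
        · rw [← h.Z_bt ha hb hc]
          exact h.mem_UU _ _
        · rw [e]
          exact zero_mem _)
      have h2 : br _ v = _ := h1 (e ▸ Submodule.mem_top : v ∈ W)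
      have h3 := congrArg (act (ψ (P n [(0, 1), (1, 2)]))) h2
      rw [hv.2, act_zero, act_add, ← act_mul _ _⁻¹, mul_inv_cancel, act_one, hv.1, act_smul, hv.1, smul_smul] at h3
      generalize ζ ^ 10 = ω at hω h3
      have h4 := om_rel hω
      have h5 := CharTwo.two_eq_zero (R := Kb F)
      have h6 : ω * (ω ^ 2 * ω ^ 2 + 1) = 1 := by grind
      apply hv0
      rw [← one_smul (Kb F) v, ← h6, mul_smul, add_smul, one_smul, ← h3, smul_zero]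
    · obtain ⟨a', b', c', e⟩ := hP' k hk a b c
      rw [e]
      exact hW _ _ _
  let C : Subgroup (G8 (Kb F)) := ⨅ t : ℕ × ℕ × ℕ, stab (Z ψ t.1 t.2.1 t.2.2)
  have hC : ∀ g, g ∈ C ↔ ∀ a b c, act g (Z ψ a b c) = Z ψ a b c := fun g =>
    Subgroup.mem_iInf.trans ⟨fun h a b c => h (a, b, c), fun h t => h _ _ _⟩
  have hC1 : ∀ x : G8 F, emb0 x ∈ C → x = 1 := fun x hx => by
    have h1 : C.comap emb0 ≤ H := fun y hy => hS y fun a b c => by
      rw [(hC _).1 hy]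
      exact hW _ _ _
    by_contra h0
    have h2 := hM.min _ h1 (fun k hk y hy => (hC _).2 fun a b c => by
      obtain ⟨a', b', c', e⟩ := hP' k⁻¹ (inv_mem hk) a b c
      rw [map_mul, map_mul, act_mul, act_mul, e, (hC _).1 hy, ← e, ← act_mul, ← map_mul, mul_inv_cancel, map_one, act_one])
      fun e => h0 (by
        have h3 : x ∈ C.comap emb0 := hx
        rwa [e] at h3)
    exact (h.hxZ o1).ne (h.nf _ fun a => (hC _).1 (h2 ⟨a, rfl⟩) 0 1 2)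
  obtain ⟨g, hg⟩ := h.exists_M0
  have hg1 : ∀ a b c, a < n → b < n → c < n →
      act g (Z ψ a b c) = bt ψ (M0 (dl _ a + dl _ b)) (M0 (dl _ b + dl _ c)) := fun a b c ha hb hc => by
    rw [← h.Z_bt ha hb hc, (hg _ (ev_dl ha hb)).2 _ (ev_dl hb hc)]
  obtain ⟨x, c, hc, hx⟩ := lang (fun _ => fix_G) Reg5.End.exists_fin (C := C) (fun c hc => (hC _).2 fun a b d => by
    rw [← hZ, ← frq_act, (hC _).1 hc]) hC1 (g := g) ((hC _).2 fun a b c => by
      rcases Z_or (ψ := ψ) a b c with ⟨ha, hb, hc⟩ | e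
      · have h1 : frq (act g (Z ψ a b c)) = act g (Z ψ a b c) := by
          rw [hg1 a b c ha hb hc, M0_add, M0_add, frq_bt (hZ 0) ((ra_M0 a).add (ra_M0 b)) ((ra_M0 b).add (ra_M0 c))]
        rw [act_mul, ← h1, frq_act, hZ, act_inv]
      · rw [e, act_zero])
  have hx1 : ∀ a b d, act (emb0 x) (Z ψ a b d) = act g (Z ψ a b d) := fun a b d => by rw [hx, act_mul, (hC _).1 hc]
  obtain ⟨σ, hσ⟩ := hP x (hS x fun a b d => by
    rcases Z_or (ψ := ψ) a b d with ⟨ha, hb, hd⟩ | e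
    · rw [hx1, hg1 a b d ha hb hd]
      exact bt_mem (hW 0) _ _
    · rw [e, act_zero]
      exact zero_mem _)
  exact h.no_perm (σ := σ) fun a b d ha hb hd => by rw [← hσ a b d ha hb hd, hx1, hg1 a b d ha hb hd]

end Cfsg.Agent.E8A.TwoH
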