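import Cfsg.Agent.E8A.TwoH.Lie

/-!
# Box TC: the module of dimension 14 of the centralizer of an element of class 92 (helper43)

* `VV ω x z` : `x u = ω² u`, `[z, u] = 0`; `dim14`, `exists_VV`, `rk1` : elements of rank at most one;
* `dim6` : a commuting element of class 92 with products of class 80; `dim2` : a commuting element of order 5.
-/

set_option autoImplicit false
set_option maxRecDepth 100000

namespace Cfsg.Agent.E8A.TwoH

open CoxeterSystem Cfsg Cfsg.Lie Module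
open Cfsg.Agent.ChevalleyStructure Cfsg.Agent.ChevalleyStructure.CoxeterGeom
  Cfsg.Agent.ChevalleyStructure.CoxeterGeomTypes Cfsg.Agent.ChevalleyStructure.JacMain
open Cfsg.Agent.Tits.Roots Cfsg.Agent.Nodes.Reps Cfsg.Agent.Nodes.BNOf Cfsg.Agent.Nodes.RGDChev
open Cfsg.Agent.H129.TorusChar
open Cfsg.Agent.H952.F4 (ev)
open Cfsg.Agent.H942.E8Tab (e8T th8)
open Cfsg.Agent.H942.CB (cs8)
open Cfsg.Agent.H288.E8L (wt act8 wt_inl wt_inr rt_vec vec_ne_zero exists_idx wt_inj)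
open Cfsg.Agent.H897.T5Lat (bf_apply)
open Cfsg.Agent.H944.Kac (srefl)
open Cfsg.Agent.H944.Tab (allAlc)
open Cfsg.Agent.E8A.Frm (B0)
open Cfsg.Agent.E8A.Par (norm_wt)
open Cfsg.Agent.E8A.Inf (toQ pk pw rat exists_cj of_allAlc cj_ev_pow cj_rat mx_pow)
open Cfsg.Agent.E8A.Reg5.Cls (ex dz Cj mv ex_refl ex_zero dfx_of_cj ev_eq_dfx)
open Cfsg.Agent.E8A.Two

universe u

variable {K : Type u} [Field K]

/-- the module -/
def VV (ω : K) (x : G8 K) (z : L8 K) : Submodule K (L8 K) where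
  carrier := {u | act x u = ω ^ 2 • u ∧ br z u = 0}
  zero_mem' := ⟨by rw [act_zero, smul_zero], br_zero_right z⟩
  add_mem' := fun {a b} ha hb => ⟨by rw [act_add, ha.1, hb.1, smul_add], by rw [br_add_right, ha.2, hb.2, add_zero]⟩
  smul_mem' := fun c a ha => ⟨by rw [act_smul, ha.1, smul_comm], by rw [br_smul_right, ha.2, smul_zero]⟩

/-- the fixed space -/
def Fx (x : G8 K) : Submodule K (L8 K) where
  carrier := {u | act x u = u}
  zero_mem' := act_zero x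
  add_mem' := fun {a b} ha hb => by
    show act x (a + b) = a + b
    rw [act_add, show act x a = a from ha, show act x b = b from hb]
  smul_mem' := fun c a ha => by
    show act x (c • a) = c • a
    rw [act_smul, show act x a = a from ha]

variable {ω : K} {x y t : G8 K} {z h : L8 K}

theorem act_cj (k x : G8 K) (u : L8 K) : act (k⁻¹ * x * k) (act k⁻¹ u) = act k⁻¹ (act x u) := by
  rw [← act_mul, ← act_mul, mul_inv_cancel_right]

theorem VV_conj (k : G8 K) {u : L8 K} : act k⁻¹ u ∈ VV ω (k⁻¹ * x * k) (act k⁻¹ z) ↔ u ∈ VV ω x z := by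
  show _ ∧ _ ↔ _ ∧ _
  rw [act_cj, ← act_smul, ← act_br, (act_injective k⁻¹).eq_iff]
  exact and_congr_right fun _ => ⟨act_eq_zero, fun e => by rw [e, act_zero]⟩

theorem VV_comm {g : G8 K} (h1 : Commute g x) (h2 : act g z = z) {u : L8 K} (hu : u ∈ VV ω x z) :
    act g u ∈ VV ω x z :=
  ⟨by rw [← act_mul, ← h1.eq, act_mul, hu.1, act_smul], by rw [← h2, ← act_br, hu.2, act_zero]⟩

theorem VV_br {v : L8 K} (h1 : act x v = v) (H : Hx x z) {u : L8 K} (hu : u ∈ VV ω x z) : br v u ∈ VV ω x z :=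
  ⟨by rw [act_br, h1, hu.1, br_smul_right], br_br_zero (H.cen v h1) hu.2⟩

theorem fr_le (c : G8 K) {U U' : Submodule K (L8 K)} (h : ∀ u ∈ U, act c u ∈ U') : finrank K U ≤ finrank K U' :=
  LinearMap.finrank_le_finrank_of_injective (f := (LK K c).restrict h) fun _ _ hab =>
    Subtype.ext (act_injective c (congrArg Subtype.val hab))

theorem fr_LS (p : Q8 → Prop) [DecidablePred p] :
    finrank K (LS K {a | p a}) = (Finset.univ.filter fun i : chevE8.Idx => p (wt i)).card := finrank_LS _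

theorem hx_rl (ht : mx t = dz ω (Pi.single 0 1)) (H : Hx t h) : InT h ∧ ∀ a, rl h a = ((a 0 : ℤ) : K) := by
  obtain ⟨h2, h3⟩ := H.spec ht
  refine ⟨h2, fun a => ?_⟩
  conv_lhs => rw [IsMC.eq_sum_sr a, map_sum]
  rw [Finset.sum_eq_single 0]
  · rw [map_zsmul, h3, if_pos rfl, zsmul_eq_mul, mul_one]
  · intro j _ hj
    rw [map_zsmul, h3, if_neg hj, smul_zero]
  · intro h
    exact absurd (Finset.mem_univ _) h

theorem zpow_eq_sq (hω : IsPrimitiveRoot ω 3) {m : ℤ} : ω ^ m = ω ^ 2 ↔ 3 ∣ m - 2 := by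
  have h0 := hω.ne_zero (by norm_num)
  rw [← zpow_ofNat ω 2, ← div_eq_one_iff_eq (zpow_ne_zero _ h0), ← zpow_sub₀ h0, hω.zpow_eq_one_iff_dvd]
  rfl

theorem mem_VV [CharP K 2] (hω : IsPrimitiveRoot ω 3) {b μ : Q8} (ht : mx t = dz ω b) (hh : InT h)
    (hμ : ∀ a, rl h a = ((ex μ a : ℤ) : K)) {u : L8 K} : u ∈ VV ω t h ↔ u ∈ LS K {a | 3 ∣ ex b a - 2 ∧ 2 ∣ ex μ a} := by
  constructor
  · intro hu i hi
    have h1 := congrFun hu.1 i
    have h2 := congrFun hu.2 i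
    rw [act_dz ht, Pi.smul_apply, smul_eq_mul] at h1
    rw [br_T hh, hμ] at h2
    exact ⟨(zpow_eq_sq hω).1 (mul_right_cancel₀ hi h1),
      (CharP.intCast_eq_zero_iff K 2 _).1 ((mul_eq_zero.1 h2).resolve_right hi)⟩
  · intro hu
    refine ⟨funext fun i => ?_, funext fun i => ?_⟩
    · rw [act_dz ht, Pi.smul_apply, smul_eq_mul]
      by_cases hi : u i = 0
      · rw [hi, mul_zero, mul_zero]
      · rw [(zpow_eq_sq hω).2 (hu i hi).1]
    · rw [br_T hh, hμ, Pi.zero_apply]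
      by_cases hi : u i = 0
      · rw [hi, mul_zero]
      · rw [(CharP.intCast_eq_zero_iff K 2 _).2 (hu i hi).2, zero_mul]

theorem mem_VV0 [CharP K 2] (hω : IsPrimitiveRoot ω 3) (ht : mx t = dz ω (Pi.single 0 1)) (H : Hx t h) {u : L8 K} :
    u ∈ VV ω t h ↔ u ∈ LS K {a | a 0 = 2} := by
  obtain ⟨h1, h2⟩ := hx_rl ht H
  rw [mem_VV hω ht h1 (μ := Pi.single 0 1) fun a => by rw [ex_single, h2]]
  refine forall_congr' fun i => imp_congr_right fun _ => ?_
  have h3 := wt_zero_bd i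
  simp only [Set.mem_ofPred_eq, ex_single]
  omega

theorem hx_cj {k : G8 K} (H : Hx x z) : Hx (k⁻¹ * x * k) (act k⁻¹ z) := by
  have h1 := H.conj k⁻¹
  rwa [inv_inv] at h1

theorem card14 : (Finset.univ.filter fun i : chevE8.Idx => wt i 0 = 2).card = 14 := by decide +kernel

theorem dim14 [CharP K 2] (hω : IsPrimitiveRoot ω 3) (hc : Cj x ω (Pi.single 0 1)) (H : Hx x z) :
    finrank K (VV ω x z) ≤ 14 := by
  obtain ⟨k, hk⟩ := hc
  refine (fr_le k⁻¹ (U' := LS K {a | a 0 = 2}) fun u hu =>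
    (mem_VV0 hω (mx_of_semi hk) (hx_cj H)).1 ((VV_conj k).2 hu)).trans ?_
  exact ((fr_LS _).trans card14).le

theorem exists_VV [CharP K 2] (hω : IsPrimitiveRoot ω 3) (hc : Cj x ω (Pi.single 0 1)) (H : Hx x z) :
    ∃ u ∈ VV ω x z, u ≠ 0 := by
  obtain ⟨k, hk⟩ := hc
  refine ⟨act k (ee K (Sum.inr ⟨239, by decide⟩)), (VV_conj k).1 ?_, fun e => ee_ne_zero _ (act_eq_zero e)⟩
  rw [act_inv]
  exact (mem_VV0 hω (mx_of_semi hk) (hx_cj H)).2 (ee_mem_LS (show wt _ 0 = 2 by decide +kernel))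

/-! ### elements of rank at most one -/

theorem minor {U : Submodule K (L8 K)} (hU : finrank K U ≤ 1) {a b : L8 K} (ha : a ∈ U) (hb : b ∈ U)
    (i j : chevE8.Idx) : a i * b j = a j * b i := by
  obtain ⟨v, hv⟩ := finrank_le_one_iff.1 hU
  obtain ⟨c, hc⟩ := hv ⟨a, ha⟩
  obtain ⟨d, hd⟩ := hv ⟨b, hb⟩
  have h1 : a = c • v.1 := (congrArg Subtype.val hc).symm
  have h2 : b = d • v.1 := (congrArg Subtype.val hd).symm
  rw [h1, h2]
  simp only [Pi.smul_apply, smul_eq_mul]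
  ring

theorem br_ee_entry (h : L8 K) {r s u : Fin chevE8.nroots} (e : vec chevE8 8 u = vec chevE8 8 r + vec chevE8 8 s) :
    br h (ee K (Sum.inr s)) (Sum.inr u) = h (Sum.inr r) * ((adA chevE8 (Sum.inr r) (Sum.inr u) (Sum.inr s) : ℤ) : K) := by
  rw [br, mulVec_ee, adm_apply, Finset.sum_eq_single (Sum.inr r)]
  · intro k _ hk
    by_cases h0 : adA chevE8 k (Sum.inr u) (Sum.inr s) = 0
    · rw [h0, Int.cast_zero, mul_zero]
    · have h1 := H288.E8L.adA_wt _ _ _ h0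
      rw [wt_inr, wt_inr, e] at h1
      exact absurd (wt_inj (i := Sum.inr r) (add_right_cancel h1) (vec_ne_zero r)).symm hk
  · intro h0
    exact absurd (Finset.mem_univ _) h0

theorem br_ee_far (h : L8 K) {i j : chevE8.Idx} (e : 2 < B0 (wt i - wt j) (wt i - wt j)) : br h (ee K j) i = 0 := by
  rw [br, mulVec_ee]
  by_contra h0
  obtain ⟨k, -, h1⟩ := adm_wt h0
  rw [h1, add_sub_cancel_right] at e
  exact absurd (norm_wt k) (not_le.2 e)

/-- the roots with first coordinate 2 -/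
def r14 (b : ℕ) : Fin chevE8.nroots := ⟨226 + b % 14, by rw [nroots8]; omega⟩

theorem r14_zero : ∀ b < 14, vec chevE8 8 (r14 b) 0 = 2 := by decide +kernel

theorem r14_add : ∀ b < 14, vec chevE8 8 (r14 b) + vec chevE8 8 (r14 (13 - b)) = ![4, 5, 7, 10, 8, 6, 4, 2] := by
  decide +kernel

/-- differences -/
def t14 : List ℕ := [12, 11, 25, 10, 24, 38, 9, 23, 37, 51, 8, 22, 36, 50, 64, 7, 21, 35, 49, 63, 77, 6, 20, 34, 48, 62, 76, 5,
  19, 33, 47, 61, 4, 18, 32, 46, 3, 17, 31, 2, 16, 1, 14, 29, 28, 44, 43, 42, 59, 58, 57, 56, 74, 73, 72, 71,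
  70, 89, 88, 87, 86, 85, 84, 103, 102, 101, 100, 99, 98, 116, 115, 114, 113, 112, 129, 128, 127, 126, 142, 141, 140, 155, 154, 168]

theorem t14_spec : ∀ r : Fin chevE8.nroots, vec chevE8 8 r 0 = 0 → t14.getD (r - 78) 0 / 14 < 14 ∧
    vec chevE8 8 (r14 (t14.getD (r - 78) 0 / 14)) = vec chevE8 8 r + vec chevE8 8 (r14 (t14.getD (r - 78) 0 % 14)) := by
  decide +kernel

theorem B0_r14 : ∀ b < 14, (∑ i, ∑ j, (vec chevE8 8 (r14 (13 - b)) - vec chevE8 8 (r14 b)) i * cartanOf chevE8 8 i j *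
    (vec chevE8 8 (r14 (13 - b)) - vec chevE8 8 (r14 b)) j) = 4 := by decide +kernel

theorem exists_diff {r : Fin chevE8.nroots} (hr : vec chevE8 8 r 0 = 0) : ∃ b < 14, ∃ b' < 14,
    vec chevE8 8 (r14 b') = vec chevE8 8 r + vec chevE8 8 (r14 b) :=
  ⟨_, Nat.mod_lt _ (by norm_num), _, (t14_spec r hr).1, (t14_spec r hr).2⟩

theorem rk1_std {v : L8 K} (hv : v ∈ LS K {a | a 0 = 0}) (hr : finrank K ((LS K {a | a 0 = 2}).map (brL K v)) ≤ 1) :
    InT v ∧ ∀ j, j ≠ 0 → rl v (sr j) = 0 := by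
  have hm : ∀ b < 14, br v (ee K (Sum.inr (r14 b))) ∈ (LS K {a | a 0 = 2}).map (brL K v) := fun b hb =>
    ⟨_, ee_mem_LS (i := Sum.inr (r14 b)) (r14_zero b hb), rfl⟩
  have h1 : InT v := by
    intro r
    by_contra h0
    obtain ⟨b, hb, b', hb', e⟩ := exists_diff (r := r) (hv _ h0)
    have e' : vec chevE8 8 (r14 (13 - b)) = vec chevE8 8 r + vec chevE8 8 (r14 (13 - b')) := by
      have h2 := (r14_add b hb).trans (r14_add b' hb').symm
      rw [e, add_comm (vec chevE8 8 r), add_assoc] at h2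
      exact add_left_cancel h2
    have h2 := minor hr (hm b hb) (hm (13 - b') (by omega)) (Sum.inr (r14 b')) (Sum.inr (r14 (13 - b)))
    rw [br_ee_entry v e, br_ee_entry v e', br_ee_far v (i := Sum.inr (r14 (13 - b))) (by
      rw [wt_inr, wt_inr, bf_apply, B0_r14 b hb]; norm_num), zero_mul] at h2
    exact mul_ne_zero (mul_ne_zero h0 (adA_ne e)) (mul_ne_zero h0 (adA_ne e')) h2
  have h2 : ∀ b < 14, ∀ b' < 14, b ≠ b' → rl v (vec chevE8 8 (r14 b)) * rl v (vec chevE8 8 (r14 b')) = 0 := by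
    intro b hb b' hb' hne
    have h3 := minor hr (hm b hb) (hm b' hb') (Sum.inr (r14 b)) (Sum.inr (r14 b'))
    have h4 : (Sum.inr (r14 b') : chevE8.Idx) ≠ Sum.inr (r14 b) := fun e => by
      have h5 : 226 + b' % 14 = 226 + b % 14 := congrArg Fin.val (Sum.inr.inj e)
      omega
    rwa [br_T h1, br_T h1, br_T h1, ee_self, ee_self, ee_ne h4, mul_one, mul_one, mul_zero, zero_mul] at h3
  have h3 : ∀ b < 14, rl v (vec chevE8 8 (r14 b)) = 0 := by
    intro b hb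
    by_contra h0
    have h4 : ∀ b' < 14, b ≠ b' → rl v (vec chevE8 8 (r14 b')) = 0 := fun b' hb' hne =>
      (mul_eq_zero.1 (h2 b hb b' hb' hne)).resolve_left h0
    obtain ⟨c, hc, k1, k2⟩ : ∃ c < 14, b ≠ c ∧ b ≠ 13 - c := by
      by_cases e : b = 0 ∨ b = 13
      · exact ⟨1, by omega, by omega, by omega⟩
      · exact ⟨0, by omega, by omega, by omega⟩
    have h5 := congrArg (rl v) ((r14_add b hb).trans (r14_add c hc).symm)
    rw [map_add, map_add, h4 c hc k1, h4 _ (by omega) k2, h4 (13 - b) (by omega) (by omega), add_zero, add_zero] at h5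
    exact h0 h5
  refine ⟨h1, fun j hj => ?_⟩
  obtain ⟨r, hr⟩ := exists_idx (isRoot_sr cs8 e8T.isCartan j)
  obtain ⟨b, hb, b', hb', e⟩ := exists_diff (r := r) (by rw [hr, sr_ne hj.symm])
  have h4 := congrArg (rl v) e
  rwa [map_add, h3 b hb, h3 b' hb', add_zero, hr, eq_comm] at h4

/-- **elements of rank at most one** -/
theorem rk1 [CharP K 2] (hω : IsPrimitiveRoot ω 3) (hc : Cj x ω (Pi.single 0 1)) (H : Hx x z) {v : L8 K}
    (hv : act x v = v) (hr : finrank K ((VV ω x z).map (brL K v)) ≤ 1) : ∃ κ : K, v = κ • z := by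
  obtain ⟨k, hk⟩ := hc
  have ht := mx_of_semi hk
  obtain ⟨h1, h2⟩ := hx_rl ht (hx_cj H)
  obtain ⟨h3, h4⟩ := rk1_std (v := act k⁻¹ v) (fun i hi => by
    have h5 := congrFun (act_cj k x v) i
    rw [hv, act_dz ht, mul_eq_right₀ hi, hω.zpow_eq_one_iff_dvd, ex_single] at h5
    have h6 := wt_zero_bd i
    show wt i 0 = 0
    omega) (le_trans (fr_le k (by
      rintro _ ⟨u, hu, rfl⟩
      refine ⟨act k u, (VV_conj k).1 ?_, ?_⟩
      · rw [act_inv]
        exact (mem_VV0 hω ht (hx_cj H)).2 hu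
      · rw [brL_apply, brL_apply, act_br, act_inv'])) hr)
  refine ⟨rl (act k⁻¹ v) (sr 0), act_injective k⁻¹ ?_⟩
  rw [act_smul]
  refine inT_ext h3 (fun r => by rw [Pi.smul_apply, h1 r, smul_zero]) fun j => ?_
  rw [rl_smul, h2]
  by_cases hj : j = 0
  · rw [hj, sr_self, Int.cast_one, mul_one]
  · rw [h4 j hj, sr_ne (Ne.symm hj), Int.cast_zero, mul_zero]

/-! ### a commuting element of order 3 -/

theorem sum_sq {S : Finset chevE8.Idx} {M : Fin 8 → Fin 8 → ℤ} (h : ∀ i k, ∑ j ∈ S, wt j i * wt j k = M i k) (y : Q8) :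
    ∑ j ∈ S, ex y (wt j) ^ 2 = ∑ i, ∑ k, y i * M i k * y k := by
  simp only [← h, ex, sq, Finset.sum_mul, Finset.mul_sum]
  rw [Finset.sum_comm]
  refine Finset.sum_congr rfl fun i _ => ?_
  rw [Finset.sum_comm]
  exact Finset.sum_congr rfl fun k _ => Finset.sum_congr rfl fun j _ => by ring

theorem tab_all : ∀ i k : Fin 8, ∑ j : chevE8.Idx, wt j i * wt j k = 60 * B8 i k := by decide +kernel

theorem tab_14 : ∀ i k : Fin 8, ∑ j ∈ Finset.univ.filter fun i : chevE8.Idx => wt i 0 = 2, wt j i * wt j k =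
    2 * B8 i k + 3 * (B8 0 i * B8 0 k) := by decide +kernel

theorem sum_all (y : Q8) : ∑ j : chevE8.Idx, ex y (wt j) ^ 2 = 60 * nm y := by
  rw [sum_sq tab_all, nm, bw]
  simp only [Finset.mul_sum]
  exact Finset.sum_congr rfl fun i _ => Finset.sum_congr rfl fun k _ => by ring

theorem bw_e0 (y : Q8) : bw (Pi.single 0 1) y = ∑ k, B8 0 k * y k := by
  rw [bw, Finset.sum_eq_single 0]
  · simp
  · intro i _ hi
    simp [Pi.single_eq_of_ne hi]
  · intro h
    exact absurd (Finset.mem_univ _) h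

theorem sum_14 (y : Q8) : ∑ j ∈ Finset.univ.filter fun i : chevE8.Idx => wt i 0 = 2, ex y (wt j) ^ 2 =
    2 * nm y + 3 * bw (Pi.single 0 1) y ^ 2 := by
  rw [sum_sq tab_14, bw_e0, nm, bw, sq]
  simp only [Finset.mul_sum, Finset.sum_mul, ← Finset.sum_add_distrib]
  exact Finset.sum_congr rfl fun i _ => Finset.sum_congr rfl fun k _ => by ring

theorem mv_le (y w : Q8) : (mv 3 y : ℤ) ≤ 60 * nm (y - (3 : ℤ) • w) := by
  rw [← sum_all, mv, Finset.card_filter]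
  push_cast
  refine Finset.sum_le_sum fun j _ => ?_
  rw [ex_sub, ex_smul]
  split_ifs with h
  · have h1 : ex y (wt j) - 3 * ex w (wt j) ≠ 0 := by omega
    have h2 := pow_pos (abs_pos.2 h1) 2
    rw [sq_abs] at h2
    omega
  · exact sq_nonneg _

/-- the coweight of a lattice vector -/
def cw (a : Q8) : Q8 := fun i => pairing (cartanOf chevE8 8) i a

theorem bw_cw (a y : Q8) : bw (cw a) y = ex y a := by
  have h1 : cw a = ∑ k, a k • cartanOf chevE8 8 k := by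
    funext i
    rw [cw, pairing, Finset.sum_apply]
    exact Finset.sum_congr rfl fun k _ => by rw [Pi.smul_apply, smul_eq_mul, mul_comm, cartan_symm]
  have h2 : ∀ (s : Finset (Fin 8)) (f : Fin 8 → Q8), bw (∑ k ∈ s, f k) y = ∑ k ∈ s, bw (f k) y := by
    intro s f
    induction s using Finset.induction_on with
    | empty => simp [bw]
    | insert k s hk ih => rw [Finset.sum_insert hk, Finset.sum_insert hk, bw_add, ih]
  rw [h1, h2, ex]
  exact Finset.sum_congr rfl fun k _ => by rw [bw_smul, bw_cartan]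

theorem ex_cw (a b : Q8) : ex (cw a) b = B0 b a := by
  rw [ex, bf_apply]
  refine Finset.sum_congr rfl fun i _ => ?_
  rw [cw, pairing, Finset.mul_sum]
  exact Finset.sum_congr rfl fun j _ => (mul_assoc _ _ _).symm

/-- small coweights -/
def Sm (y : Q8) : Prop := nm y = 4 ∧ ∀ j, -2 ≤ ex y (wt j) ∧ ex y (wt j) ≤ 2

theorem Sm.refl {y : Q8} (h : Sm y) (i : Fin 8) : Sm (srefl chevE8 8 i y) := by
  refine ⟨(nm_srefl y i).trans h.1, fun j => ?_⟩
  rw [← ex_refl]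
  rcases j with j | r
  · rw [wt_inl, act8_zero, ex_zero]
    norm_num
  · obtain ⟨s, hs⟩ := exists_idx ((rt_vec r).act (cs8.simple i))
    have hs' : act8 (cs8.simple i) (wt (Sum.inr r)) = wt (Sum.inr s) := hs.symm
    rw [hs']
    exact h.2 _

theorem nm_e0 : nm (Pi.single 0 1) = 4 := by decide +kernel

theorem sm_e0 : Sm (Pi.single 0 1) := ⟨nm_e0, fun j => by rw [ex_single]; exact wt_zero_bd j⟩

theorem vals {b : Q8} (hb : Sm b) (h1 : mv 3 (Pi.single 0 1 + b) = 168) (h2 : mv 3 (Pi.single 0 1 - b) = 168)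
    (h3 : ((nm (Pi.single 0 1 + b) : ℤ) : ZMod 3) = 2) :
    (∀ j, wt j 0 = 2 → -1 ≤ ex b (wt j) ∧ ex b (wt j) ≤ 1) ∧ (∃ a, ¬ 2 ∣ ex b a) ∧
      (Finset.univ.filter fun j : chevE8.Idx => wt j 0 = 2 ∧ ex b (wt j) = 0).card = 6 := by
  have k1 := mv_le (Pi.single 0 1 + b) 0
  have k2 := mv_le (Pi.single 0 1 - b) 0
  rw [smul_zero, sub_zero] at k1 k2
  have k3 : (3 : ℤ) ∣ nm (Pi.single 0 1 + b) - 2 := by
    have h4 := (ZMod.intCast_zmod_eq_zero_iff_dvd (nm (Pi.single 0 1 + b) - 2) 3).1 (by rw [Int.cast_sub, h3]; rfl)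
    exact h4
  rw [nm_add, nm_e0, hb.1] at k1 k3
  rw [nm_sub, nm_e0, hb.1] at k2
  have k4 : bw (Pi.single 0 1) b = 0 := by omega
  have k5 : ∀ j, wt j 0 = 2 → -1 ≤ ex b (wt j) ∧ ex b (wt j) ≤ 1 := by
    intro j hj
    have k6 := mv_le (Pi.single 0 1 + b) (cw (wt j))
    have k7 := mv_le (Pi.single 0 1 - b) (cw (wt j))
    have k8 : nm (cw (wt j)) ≤ 2 := by rw [nm, bw_cw, ex_cw]; exact norm_wt j
    rw [nm_sub, nm_smul, bw_comm, bw_smul, bw_cw] at k6 k7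
    rw [nm_add, ex_add, ex_single, hj, nm_e0, hb.1, k4] at k6
    rw [nm_sub, ex_sub, ex_single, hj, nm_e0, hb.1, k4] at k7
    omega
  have k6 := sum_14 b
  rw [hb.1, k4] at k6
  have k7 : ∑ j ∈ Finset.univ.filter fun i : chevE8.Idx => wt i 0 = 2,
      (ex b (wt j) ^ 2 + if ex b (wt j) = 0 then 1 else 0) = 14 := by
    rw [Finset.sum_congr rfl (g := fun _ => (1 : ℤ)), Finset.sum_const, card14]
    · rfl
    · intro j hj
      obtain ⟨l1, l2⟩ := k5 j (Finset.mem_filter.1 hj).2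
      generalize ex b (wt j) = m at *
      interval_cases m <;> rfl
  rw [Finset.sum_add_distrib, k6, Finset.sum_boole, Finset.filter_filter] at k7
  refine ⟨k5, ?_, by omega⟩
  by_contra hc
  push Not at hc
  rw [Finset.sum_eq_zero fun j hj => ?_] at k6
  · omega
  · obtain ⟨l1, l2⟩ := k5 j (Finset.mem_filter.1 hj).2
    have l3 := hc (wt j)
    rw [show ex b (wt j) = 0 by omega]
    rfl

section

variable {F : Type u} [Field F] [Finite F] [CharP F 2] {ω : Kb F} {x y : G8 (Kb F)} {z z' : L8 (Kb F)}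

theorem tb_80 : ∀ e ∈ Reg5.Cls.tb 3, e.2 = 80 → (fun i : Fin 8 => ((e.1.getD i 0 : ℕ) : ℤ)) = Pi.single 1 1 := by
  decide +kernel

theorem pair_std (hω : IsPrimitiveRoot ω 3) (hx : x ^ 3 = 1) (hy : y ^ 3 = 1) (hc : Commute x y) {d : ℕ} {a : Q8}
    (ha : ∀ e ∈ Reg5.Cls.tb 3, e.2 = d → (fun i : Fin 8 => ((e.1.getD i 0 : ℕ) : ℤ)) = a)
    (hd : ev (LK (Kb F) x) 1 = d) : ∃ b, Cj2 x y ω a b := by
  obtain ⟨s, b, hs, h⟩ := pair_kac Nat.prime_three (by exact_mod_cast three_ne) hω hx hy hc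
  obtain ⟨e, he, e1⟩ := Reg5.Cls.tb_all 3 (by decide) ⟨s 0, by omega⟩ ⟨s 1, by omega⟩ ⟨s 2, by omega⟩ ⟨s 3, by omega⟩
    ⟨s 4, by omega⟩ ⟨s 5, by omega⟩ ⟨s 6, by omega⟩ ⟨s 7, by omega⟩ hs
  have e2 : (fun i : Fin 8 => ((e.1.getD i 0 : ℕ) : ℤ)) = fun i => (s i : ℤ) := by
    rw [e1]
    funext i
    fin_cases i <;> rfl
  have e3 := Reg5.Cls.tb_mv 3 (by decide) e he
  have e4 := dfx_of_cj hω h.left
  rw [← ev_eq_dfx, hd] at e4
  rw [e2] at e3
  rw [← e2, ha e he (by omega)] at h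
  exact ⟨b, h⟩

/-- **a commuting element of class 92** -/
theorem dim6 (hω : IsPrimitiveRoot ω 3) (hx : x ^ 3 = 1) (hy : y ^ 3 = 1) (hc : Commute x y)
    (d1 : ev (LK (Kb F) x) 1 = 92) (d2 : ev (LK (Kb F) y) 1 = 92) (d3 : ev (LK (Kb F) (x * y)) 1 = 80)
    (d4 : ev (LK (Kb F) (x * y⁻¹)) 1 = 80) (H : Hx x z) (H' : Hx y z') :
    (∀ u ∈ VV ω x z, br z' u = act y u + act y⁻¹ u) ∧ 6 ≤ finrank (Kb F) (VV ω x z ⊓ Fx y : Submodule (Kb F) _) := by
  have := charKb (F := F)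
  have h0 := hω.ne_zero (by norm_num)
  obtain ⟨b₀, h⟩ := pair_std hω hx hy hc (fun e he => (tb_single e he).1) d1
  have hy0 := cj_92 three_ne hω hy d2
  obtain ⟨b, hb, hbb⟩ := cj_ind hω (by norm_num) h.right hy0 (P := Sm) (fun _ i hy => hy.refl i) sm_e0
  replace h := h.congr hω (by norm_num) (fun _ => rfl) fun i => (hbb i).symm
  have k1 := dfx_of_cj hω (h.mul h0)
  have k2 := dfx_of_cj hω (h.mul_inv h0)
  have k3 := cj_q3 three_ne hω (by rw [hc.mul_pow, hx, hy, mul_one]) (h.mul h0)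
  rw [← ev_eq_dfx] at k1 k2
  rw [d3] at k1 k3
  rw [d4] at k2
  obtain ⟨v1, v2, v3⟩ := vals hb (by omega) (by omega) k3
  obtain ⟨k, c1, c2⟩ := h
  have ht := mx_of_semi c1
  have ht' := mx_of_semi c2
  have ht'' := mx_of_semi (semi_inv h0 c2)
  obtain ⟨w, w1, w2⟩ := exists_hm (K := Kb F) b
  have k4 := hx_dz hω ht' w1 w2 (fun j hj => by have := hb.2 j; omega) v2
  have k5 : act k⁻¹ z' = w := hx_uniq (by simpa using cj_conj hy0 k⁻¹) (hx_cj H') k4
  refine ⟨fun u hu => act_injective k⁻¹ ?_, ?_⟩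
  · have h1 := (mem_VV0 hω ht (hx_cj H)).1 ((VV_conj k).2 hu)
    rw [act_br, act_add, ← act_cj, ← act_cj, k5]
    funext i
    rw [br_T w1, w2, Pi.add_apply, act_dz ht', act_dz ht'', ex_neg]
    by_cases hi : act k⁻¹ u i = 0
    · rw [hi, mul_zero, mul_zero, mul_zero, add_zero]
    · obtain ⟨l1, l2⟩ := v1 i (h1 i hi)
      have l3 := (om_zpow hω).1
      have l4 := om_rel hω
      have l5 : (2 : Kb F) = 0 := CharTwo.two_eq_zero
      generalize ex b (wt i) = m at *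
      generalize act k⁻¹ u i = c
      interval_cases m
      · rw [neg_neg, l3, zpow_one]
        push_cast
        linear_combination -c * l4
      · simp only [neg_zero, zpow_zero]
        push_cast
        linear_combination -c * l5
      · rw [l3, zpow_one]
        push_cast
        linear_combination -c * l4 + c * l5
  · refine ((fr_LS (K := Kb F) fun a => a 0 = 2 ∧ ex b a = 0).trans v3).ge.trans ?_
    refine fr_le k fun u hu => ⟨(VV_conj k).1 ?_, act_injective k⁻¹ ?_⟩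
    · rw [act_inv]
      exact (mem_VV0 hω ht (hx_cj H)).2 (LS_mono (fun a ha => ha.1) hu)
    · rw [← act_cj, act_inv]
      funext i
      rw [act_dz ht']
      by_cases hi : u i = 0
      · rw [hi, mul_zero]
      · rw [(hu i hi).2, zpow_zero, one_mul]

/-- the test for the elements of order 15 -/
def ok15 (y : List ℕ) : Bool :=
  bif Nat.beq (pw 15 (pk 15 y) 10 0) 92 && Nat.beq (pw 15 (pk 15 y) 6 0) 48 && rat 15 (pk 15 y) 2 then
    y == [1, 1, 0, 0, 1, 0, 0, 2] else true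

theorem chk15 : allAlc th8 15 ok15 = true := by decide +kernel

theorem z15 : ∀ j : chevE8.Idx, 3 ∣ ex (toQ [1, 1, 0, 0, 1, 0, 0, 2]) (wt j) → 2 ∣ ex (toQ [1, 0, 0, 0, 1, 0, 0, 1]) (wt j) := by
  decide +kernel

theorem card15 : (Finset.univ.filter fun j : chevE8.Idx => (3 ∣ ex (toQ [1, 1, 0, 0, 1, 0, 0, 2]) (wt j) - 2 ∧
    2 ∣ ex (toQ [1, 0, 0, 0, 1, 0, 0, 1]) (wt j)) ∧ 5 ∣ ex (toQ [1, 1, 0, 0, 1, 0, 0, 2]) (wt j)).card = 2 := by
  decide +kernel

theorem ok15_spec {y : List ℕ} (h : ok15 y = true) (h1 : pw 15 (pk 15 y) 10 0 = 92) (h2 : pw 15 (pk 15 y) 6 0 = 48)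
    (h3 : rat 15 (pk 15 y) 2 = true) : y = [1, 1, 0, 0, 1, 0, 0, 2] := by
  rw [ok15, h1, h2, h3] at h
  exact eq_of_beq h

theorem dz_pow {ζ : K} (y : Q8) (m : ℕ) : dz ζ y ^ m = dz (ζ ^ m) y := by
  rw [dz, dz, Matrix.diagonal_pow]
  congr 1
  funext j
  rw [Pi.pow_apply, ← zpow_natCast, ← zpow_natCast, ← zpow_mul, ← zpow_mul, mul_comm]

/-- **a commuting element of order 5** -/
theorem dim2 {ζ : Kb F} (hζ : IsPrimitiveRoot ζ 15) {g : G8 (Kb F)} (hg : g ^ 15 = 1) (hr : IsConj g (g ^ 2))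
    (d1 : ev (LK (Kb F) (g ^ 10)) 1 = 92) (d2 : ev (LK (Kb F) (g ^ 6)) 1 = 48) (H : Hx (g ^ 10) z) :
    finrank (Kb F) (VV (ζ ^ 10) (g ^ 10) z ⊓ Fx (g ^ 6) : Submodule (Kb F) _) ≤ 2 := by
  have := charKb (F := F)
  have hω : IsPrimitiveRoot (ζ ^ 10) 3 := by
    have h1 := (hζ.pow (by norm_num) (show 15 = 5 * 3 by norm_num)).pow_of_coprime 2 (by norm_num)
    rwa [← pow_mul] at h1
  have h5 : IsPrimitiveRoot (ζ ^ 6) 5 := by
    have h1 := (hζ.pow (by norm_num) (show 15 = 3 * 5 by norm_num)).pow_of_coprime 2 (by norm_num)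
    rwa [← pow_mul] at h1
  obtain ⟨y, h1, h2, h3⟩ := exists_cj (F := F) (N := 15) (fun e => by
    rw [CharP.cast_eq_zero_iff F 2] at e
    omega) hζ hg
  have h4 := of_allAlc chk15 h1 h2
  have k1 := cj_ev_pow hζ (by norm_num) h3 10 (k := 0) (by norm_num)
  have k2 := cj_ev_pow hζ (by norm_num) h3 6 (k := 0) (by norm_num)
  rw [pow_zero] at k1 k2
  rw [ok15_spec h4 (k1.symm.trans d1) (k2.symm.trans d2) (cj_rat hζ (by norm_num) h3 hr)] at h3
  obtain ⟨k, hk⟩ := h3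
  have ht : ∀ m : ℕ, mx (k⁻¹ * g ^ m * k) = dz (ζ ^ m) (toQ [1, 1, 0, 0, 1, 0, 0, 2]) := fun m => by
    have e := conj_pow (a := k⁻¹) (b := g) (i := m)
    rw [inv_inv] at e
    rw [← dz_pow, ← mx_of_semi hk, ← mx_pow, e]
  obtain ⟨w, w1, w2⟩ := exists_hm (K := Kb F) (toQ [1, 0, 0, 0, 1, 0, 0, 1])
  have k4 := hx_dz hω (ht 10) w1 w2 z15 ⟨Pi.single 0 1, by decide +kernel⟩
  have k5 : act k⁻¹ z = w := hx_uniq (by
    simpa using cj_conj (cj_92 three_ne hω (by rw [← pow_mul, show 10 * 3 = 15 * 2 from rfl, pow_mul, hg, one_pow]) d1)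
      k⁻¹) (hx_cj H) k4
  refine le_trans ?_ ((fr_LS (K := Kb F) fun a => (3 ∣ ex (toQ [1, 1, 0, 0, 1, 0, 0, 2]) a - 2 ∧
    2 ∣ ex (toQ [1, 0, 0, 0, 1, 0, 0, 1]) a) ∧ 5 ∣ ex (toQ [1, 1, 0, 0, 1, 0, 0, 2]) a).trans card15).le
  refine fr_le k⁻¹ fun u hu i hi => ⟨(mem_VV hω (ht 10) w1 w2).1 (k5 ▸ (VV_conj k).2 hu.1) i hi, ?_⟩
  have h6 := congrFun (act_cj k (g ^ 6) u) i
  rwa [show act (g ^ 6) u = u from hu.2, act_dz (ht 6), mul_eq_right₀ hi, h5.zpow_eq_one_iff_dvd] at h6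

end

end Cfsg.Agent.E8A.TwoH
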