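import Cfsg.Agent.E8A.TwoH.R12

/-!
# Box TC: the span of the vectors of the 3-cycles as a quotient of an exterior square (helper43)

* `bt ψ` : the alternating map, `Z_bt`; `Ac ψ g M` : `g` acts through `M`; `ac_P`, `ac_lam`;
* `exists_M0` : an element acting as a transposition times the reflection in a 6-set.
-/

set_option autoImplicit false
set_option maxRecDepth 100000

namespace Cfsg.Agent.E8A.TwoH

open Cfsg Cfsg.Lie Module Equiv
open Cfsg.Agent.R2.T1.Odd Cfsg.Agent.R2.T1.Msk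
open Cfsg.Agent.E8A.Two

universe u

section

variable {K : Type u} [Field K]

/-- a basis vector -/
def dl (K : Type u) [Field K] (a : ℕ) : ℕ → K := Pi.single a 1

/-- the operator of the torus element -/
def Lm (θ : K) (x : ℕ → K) (i : ℕ) : K :=
  (1 + θ) * x i + (1 + θ ^ 2) * x (ap [(1, 2), (0, 1)] i) + (1 + θ + θ ^ 2) * x (ap [(0, 1), (1, 2)] i)

/-- a bit of an entry of a matrix over the field of order 8 -/
def bi (N i j k : ℕ) : ℕ := N / 2 ^ (18 * i + 3 * j + k) % 2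

/-- an entry -/
def en (θ : K) (N i j : ℕ) : K := bi N i j 0 + bi N i j 1 * θ + bi N i j 2 * θ ^ 2

/-- the operator of a matrix -/
def Ap (θ : K) (N : ℕ) (x : ℕ → K) (i : ℕ) : K := if i < 6 then ∑ j ∈ Finset.range 6, en θ N i j * x j else x i

/-- the check for an entry -/
def ck1 (a b c d : ℕ → ℕ) : Bool :=
  d 0 % 2 == (a 0 + b 0 + c 0 + a 2 + c 2 + b 1 + c 1) % 2 &&
  d 1 % 2 == (a 1 + b 1 + c 1 + a 0 + c 0 + a 2 + c 2 + b 2 + c 2 + b 1 + c 1) % 2 &&
  d 2 % 2 == (a 2 + b 2 + c 2 + a 1 + c 1 + b 0 + c 0 + b 2 + c 2) % 2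

/-- the check for a step -/
def ck (N : ℕ) (l : List (ℕ × ℕ)) (N' : ℕ) : Bool := vl 6 l && (List.range 6).all fun i => (List.range 6).all fun j =>
  ck1 (bi N (ap l i) j) (bi N (ap l (ap [(1, 2), (0, 1)] i)) j) (bi N (ap l (ap [(0, 1), (1, 2)] i)) j) (bi N' i j)

/-- the check for a word -/
def cks : ℕ → List (List (ℕ × ℕ) × ℕ) → ℕ → Bool
  | N, [], M => N == M
  | N, e :: w, M => ck N e.1 e.2 && cks e.2 w M

/-- the sum of the first six basis vectors -/
def o6 (K : Type u) [Field K] : ℕ → K := dl K 0 + dl K 1 + dl K 2 + dl K 3 + dl K 4 + dl K 5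

/-- a transposition times a reflection -/
def M0 (x : ℕ → K) (i : ℕ) : K := x (ap [(0, 1)] i) + (∑ j ∈ Finset.range 6, x j) * o6 K i

theorem M0_add (x y : ℕ → K) : M0 (x + y) = M0 x + M0 y := by
  funext i
  simp only [M0, Pi.add_apply, Finset.sum_add_distrib]
  ring

theorem dl_ap (a : ℕ) : (fun i => dl K a (ap [(0, 1)] i)) = dl K (ap [(0, 1)] a) := by
  funext i
  have h : ap [(0, 1)] i = a ↔ i = ap [(0, 1)] a := by
    simp only [ap, nb]
    split_ifs <;> omega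
  simp only [dl, Pi.single_apply, h]

theorem M0_lt {a : ℕ} (ha : a < 6) : M0 (dl K a) = dl K (ap [(0, 1)] a) + o6 K := by
  funext i
  rw [M0, ← dl_ap, dl, Finset.sum_pi_single', if_pos (Finset.mem_range.2 ha), one_mul]
  rfl

theorem M0_ge {a : ℕ} (ha : 6 ≤ a) : M0 (dl K a) = dl K a := by
  funext i
  rw [M0, congrFun (dl_ap a) i, ap_out (by simp; omega), dl, Finset.sum_pi_single', if_neg (by simp; omega), zero_mul,
    add_zero]

variable [CharP K 2] {θ : K}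

theorem ck1_spec (hθ : θ ^ 3 = θ + 1) {a b c d : ℕ → ℕ} (h : ck1 a b c d = true) :
    (1 + θ) * (a 0 + a 1 * θ + a 2 * θ ^ 2) + (1 + θ ^ 2) * (b 0 + b 1 * θ + b 2 * θ ^ 2) +
      (1 + θ + θ ^ 2) * (c 0 + c 1 * θ + c 2 * θ ^ 2) = d 0 + d 1 * θ + d 2 * θ ^ 2 := by
  simp only [ck1, Bool.and_eq_true, beq_iff_eq] at h
  have h0 := (CharP.natCast_eq_natCast K 2).2 h.1.1
  have h1 := (CharP.natCast_eq_natCast K 2).2 h.1.2
  have h2 := (CharP.natCast_eq_natCast K 2).2 h.2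
  push_cast at h0 h1 h2
  rw [h0, h1, h2]
  linear_combination ((a 2 : K) + b 1 + c 1 + c 2 + (b 2 + c 2) * θ) * hθ

theorem Ap_step (hθ : θ ^ 3 = θ + 1) {N N' : ℕ} {l : List (ℕ × ℕ)} (h : ck N l N' = true) (x : ℕ → K) :
    (Lm θ fun i => Ap θ N x (ap l i)) = Ap θ N' x := by
  simp only [ck, Bool.and_eq_true, List.all_eq_true, List.mem_range] at h
  have h1 := (vl_iff.1 h.1).2
  have e1 : En 6 [(1, 2), (0, 1)] := (vl_iff.1 (by decide)).2
  have e2 : En 6 [(0, 1), (1, 2)] := (vl_iff.1 (by decide)).2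
  funext i
  by_cases hi : i < 6
  · rw [Lm, Ap, Ap, Ap, Ap, if_pos hi, if_pos (ap_lt h1 hi), if_pos (ap_lt h1 (ap_lt e1 hi)), if_pos (ap_lt h1 (ap_lt e2 hi)),
      Finset.mul_sum, Finset.mul_sum, Finset.mul_sum, ← Finset.sum_add_distrib, ← Finset.sum_add_distrib]
    refine Finset.sum_congr rfl fun j hj => ?_
    rw [en, en, en, en, ← ck1_spec hθ (h.2 i hi j (Finset.mem_range.1 hj))]
    ring
  · rw [Lm, ap_ge e1 (not_lt.1 hi), ap_ge e2 (not_lt.1 hi), ap_ge h1 (not_lt.1 hi)]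
    rw [Ap, Ap, if_neg hi, if_neg hi]
    linear_combination (1 + θ + θ ^ 2) * x i * CharTwo.two_eq_zero (R := K)

omit [CharP K 2] in
theorem Ap_one (x : ℕ → K) : Ap θ 40564838550125678058396201254913 x = x := by
  have h : ∀ i < 6, ∀ j < 6, bi 40564838550125678058396201254913 i j 0 = (if j = i then 1 else 0) ∧
      bi 40564838550125678058396201254913 i j 1 = 0 ∧ bi 40564838550125678058396201254913 i j 2 = 0 := by decide +kernel
  funext i
  rw [Ap]
  split_ifs with hi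
  · rw [Finset.sum_eq_single i]
    · simp [en, h i hi i hi]
    · intro j hj hne
      simp [en, h i hi j (Finset.mem_range.1 hj), hne]
    · simp [hi]
  · rfl

theorem Ap_last (x : ℕ → K) :
    (fun i => Ap θ 41289190974139818474865288286793 x (ap [(0, 3), (1, 4), (3, 4), (4, 5)] i)) = M0 x := by
  have h : ∀ i < 6, ∀ j < 6, bi 41289190974139818474865288286793 (ap [(0, 3), (1, 4), (3, 4), (4, 5)] i) j 0 =
      (if j = ap [(0, 1)] i then 0 else 1) ∧
      bi 41289190974139818474865288286793 (ap [(0, 3), (1, 4), (3, 4), (4, 5)] i) j 1 = 0 ∧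
      bi 41289190974139818474865288286793 (ap [(0, 3), (1, 4), (3, 4), (4, 5)] i) j 2 = 0 := by decide +kernel
  have e1 : En 6 [(0, 3), (1, 4), (3, 4), (4, 5)] := (vl_iff.1 (by decide)).2
  have e2 : En 6 [(0, 1)] := by simp [En]
  funext i
  by_cases hi : i < 6
  · have h1 : o6 K i = 1 := by interval_cases i <;> simp [o6, dl]
    have h2 : x (ap [(0, 1)] i) = ∑ j ∈ Finset.range 6, if j = ap [(0, 1)] i then x j else 0 := by
      rw [Finset.sum_ite_eq', if_pos (Finset.mem_range.2 (ap_lt e2 hi))]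
    rw [Ap, if_pos (ap_lt e1 hi), M0, h1, mul_one, h2, ← Finset.sum_add_distrib]
    refine Finset.sum_congr rfl fun j hj => ?_
    have h3 := h i hi j (Finset.mem_range.1 hj)
    rw [en, h3.1, h3.2.1, h3.2.2]
    split_ifs <;> simp [CharTwo.add_self_eq_zero]
  · have h1 : o6 K i = 0 := by
      simp only [o6, dl, Pi.add_apply]
      rw [Pi.single_eq_of_ne, Pi.single_eq_of_ne, Pi.single_eq_of_ne, Pi.single_eq_of_ne, Pi.single_eq_of_ne,
        Pi.single_eq_of_ne] <;> first | omega | simp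
    rw [M0, h1, mul_zero, add_zero, ap_ge e1 (not_lt.1 hi), ap_ge e2 (not_lt.1 hi), Ap, if_neg hi]

end

section

variable {K : Type u} [Field K] {n : ℕ} [NeZero n]

/-- the alternating map -/
noncomputable def bt (ψ : Alt n →* G8 K) : (ℕ → K) →ₗ[K] (ℕ → K) →ₗ[K] L8 K :=
  ∑ i : Fin n, ∑ j : Fin n, (LinearMap.proj (i : ℕ)).smulRight ((LinearMap.proj (j : ℕ)).smulRight (Z ψ 0 i j))

variable {ψ : Alt n →* G8 K}

theorem bt_apply (x y : ℕ → K) : bt ψ x y = ∑ i : Fin n, ∑ j : Fin n, x i • y j • Z ψ 0 i j := by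
  simp [bt, LinearMap.sum_apply]

theorem bt_mem {U : Submodule K (L8 K)} (h : ∀ i j, Z ψ 0 i j ∈ U) (x y : ℕ → K) : bt ψ x y ∈ U := by
  rw [bt_apply]
  exact sum_mem fun i _ => sum_mem fun j _ => U.smul_mem _ (U.smul_mem _ (h _ _))

theorem bt_dl {a b : ℕ} (ha : a < n) (hb : b < n) : bt ψ (dl K a) (dl K b) = Z ψ 0 a b := by
  rw [bt_apply, Finset.sum_eq_single ⟨a, ha⟩, Finset.sum_eq_single ⟨b, hb⟩]
  · simp [dl]
  · intro j _ hj
    rw [dl, dl, Pi.single_eq_of_ne (fun e => hj (Fin.ext e)), zero_smul, smul_zero]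
  · simp
  · intro i _ hi
    simp only [dl]
    rw [Pi.single_eq_of_ne (fun e => hi (Fin.ext e))]
    simp
  · simp

theorem Z_12 (a c : ℕ) : Z ψ a a c = 0 := Z_not fun h => by simpa using h.1

theorem Z_13 (a b : ℕ) : Z ψ a b a = 0 := Z_not fun h => by simpa using h.1

theorem Z_23 (a b : ℕ) : Z ψ a b b = 0 := Z_not fun h => by simpa using h.1

variable (n) in
/-- even vectors -/
def Ev (x : ℕ → K) : Prop := ∑ i : Fin n, x i = 0

omit [NeZero n] in
theorem ev_dl [CharP K 2] {a b : ℕ} (ha : a < n) (hb : b < n) : Ev n (dl K a + dl K b) := by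
  have h : ∀ a < n, ∑ i : Fin n, dl K a i = 1 := fun a ha => by
    rw [Finset.sum_eq_single ⟨a, ha⟩]
    · simp [dl]
    · intro j _ hj
      rw [dl, Pi.single_eq_of_ne (fun e => hj (Fin.ext e))]
    · simp
  simp only [Ev, Pi.add_apply, Finset.sum_add_distrib, h a ha, h b hb, CharTwo.add_self_eq_zero]

variable (ψ) in
/-- `g` acts through `M` -/
def Ac (g : G8 K) (M : (ℕ → K) → ℕ → K) : Prop :=
  ∀ x, Ev n x → Ev n (M x) ∧ ∀ y, Ev n y → act g (bt ψ x y) = bt ψ (M x) (M y)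

theorem Ac.comp {g g' : G8 K} {M M' : (ℕ → K) → ℕ → K} (h : Ac ψ g M) (h' : Ac ψ g' M') :
    Ac ψ (g' * g) fun x => M' (M x) := fun x hx =>
  ⟨(h' _ (h x hx).1).1, fun y hy => by rw [act_mul, (h x hx).2 y hy, (h' _ (h x hx).1).2 _ (h y hy).1]⟩

theorem sum_ap {V : Type*} [AddCommMonoid V] {m : ℕ} (hm : m ≤ n) {l : List (ℕ × ℕ)} (hl : vl m l = true) (f : ℕ → V) :
    ∑ i : Fin n, f (ap l i) = ∑ i : Fin n, f i := by
  rw [← Equiv.sum_comp (pm n l) fun i : Fin n => f i]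
  exact Finset.sum_congr rfl fun i _ => by rw [pm_apply ((vl_iff.1 hl).2.mono hm)]

/-- the vectors on which `ad z` acts as `t + t⁻¹` -/
def UU (t : G8 K) (z : L8 K) : Submodule K (L8 K) where
  carrier := {u | br z u = act t u + act t⁻¹ u}
  zero_mem' := by
    show br z 0 = act t 0 + act t⁻¹ 0
    rw [br_zero_right, act_zero, act_zero, add_zero]
  add_mem' := fun {a b} ha hb => by
    show br z (a + b) = act t (a + b) + act t⁻¹ (a + b)
    rw [br_add_right, act_add, act_add, show br z a = _ from ha, show br z b = _ from hb]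
    abel
  smul_mem' := fun c a ha => by
    show br z (c • a) = act t (c • a) + act t⁻¹ (c • a)
    rw [br_smul_right, act_smul, act_smul, show br z a = _ from ha, smul_add]

theorem UU_act {t : G8 K} {z u : L8 K} (hz : act t z = z) (hu : u ∈ UU t z) : act t u ∈ UU t z := by
  show br z (act t u) = act t (act t u) + act t⁻¹ (act t u)
  have h := congrArg (act t) (show br z u = _ from hu)
  rw [act_br, hz, act_add, ← act_mul t t⁻¹, mul_inv_cancel, act_one] at h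
  rw [h, act_inv]

theorem UU_fix [CharP K 2] {t : G8 K} {z u : L8 K} (H : Hx t z) (hu : act t u = u) : u ∈ UU t z := by
  show br z u = act t u + act t⁻¹ u
  rw [H.cen u hu, act_inv_fix hu, hu, two_L]

end

variable {F : Type u} [Field F] [Finite F] [CharP F 2] {n : ℕ} [NeZero n] {ψ : Alt n →* G8 (Kb F)}

namespace HC

variable (h : HC ψ)
include h

theorem coc {a b c d : ℕ} (ha : a < n) (hb : b < n) (hc : c < n) (hd : d < n) :
    Z ψ a b c + Z ψ a b d + Z ψ a c d + Z ψ b c d = 0 := by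
  have := charKb (F := F)
  by_cases e1 : a = b
  · rw [e1, Z_12, Z_12, zero_add, zero_add, two_L]
  by_cases e2 : a = c
  · rw [← e2, Z_13, Z_12, zero_add, add_zero, h.sw1 a b, two_L]
  by_cases e3 : a = d
  · rw [← e3, Z_13, Z_13, add_zero, add_zero, h.sw2 b a, h.sw1 a b, two_L]
  by_cases e4 : b = c
  · rw [← e4, Z_23, Z_12, zero_add, add_zero, two_L]
  by_cases e5 : b = d
  · rw [← e5, Z_23, Z_13, add_zero, add_zero, h.sw2 a b, two_L]
  by_cases e6 : c = d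
  · rw [← e6, Z_23, Z_23, add_zero, add_zero, two_L]
  exact h.r1 ⟨by simp [e1, e2, e3, e4, e5, e6], by simp [ha, hb, hc, hd]⟩

theorem Z_Y {a b c : ℕ} (ha : a < n) (hb : b < n) (hc : c < n) : Z ψ a b c = Z ψ 0 a b + Z ψ 0 a c + Z ψ 0 b c := by
  have := charKb (F := F)
  exact (eq_of_add_L (h.coc (by have := h.hn; omega) ha hb hc)).symm

theorem Z_bt {a b c : ℕ} (ha : a < n) (hb : b < n) (hc : c < n) :
    bt ψ (dl _ a + dl _ b) (dl _ b + dl _ c) = Z ψ a b c := by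
  simp only [map_add, LinearMap.add_apply]
  rw [bt_dl ha hb, bt_dl hb hb, bt_dl ha hc, bt_dl hb hc, Z_23, add_zero, h.Z_Y ha hb hc, add_assoc]

theorem bt_comm (x y : ℕ → Kb F) : bt ψ x y = bt ψ y x := by
  rw [bt_apply, bt_apply, Finset.sum_comm]
  exact Finset.sum_congr rfl fun i _ => Finset.sum_congr rfl fun j _ => by rw [smul_comm, h.sw2]

theorem ac_P {m : ℕ} (hm : m ≤ n) {l : List (ℕ × ℕ)} (hl : vl m l = true) :
    Ac ψ (ψ (P n l))⁻¹ fun x i => x (ap l i) := by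
  have hn := h.hn
  have he := (vl_iff.1 hl).2.mono hm
  refine fun x hx => ⟨(sum_ap hm hl x).trans hx, fun y hy => ?_⟩
  have h0 : ap l 0 < n := ap_lt he (by omega)
  have h1 : act (ψ (P n l)) (bt ψ (fun i => x (ap l i)) fun i => y (ap l i)) =
      ∑ i : Fin n, ∑ j : Fin n, x i • y j • Z ψ (ap l 0) i j := by
    rw [bt_apply, act_sum, ← sum_ap hm hl fun i => ∑ j : Fin n, x i • y j • Z ψ (ap l 0) i j]
    refine Finset.sum_congr rfl fun i _ => ?_
    rw [act_sum, ← sum_ap hm hl fun j => x (ap l i) • y j • Z ψ (ap l 0) (ap l i) j]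
    refine Finset.sum_congr rfl fun j _ => ?_
    rw [act_smul, act_smul, h.Z_P hm hl (by omega) i.2 j.2]
  have h2 : ∑ i : Fin n, ∑ j : Fin n, x i • y j • Z ψ (ap l 0) i j = bt ψ x y := by
    simp only [fun i j : Fin n => h.Z_Y h0 i.2 j.2, smul_add, Finset.sum_add_distrib]
    rw [bt_apply, Finset.sum_eq_zero, Finset.sum_comm, Finset.sum_eq_zero, zero_add, zero_add]
    · intro j _
      rw [← Finset.sum_smul, show ∑ i : Fin n, x i = 0 from hx, zero_smul]
    · intro i _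
      rw [← Finset.smul_sum, ← Finset.sum_smul, show ∑ i : Fin n, y i = 0 from hy, zero_smul, smul_zero]
  rw [← h2, ← h1, act_inv]

theorem mem_UU (x y : ℕ → Kb F) : bt ψ x y ∈ UU (ψ (P n [(0, 1), (1, 2)])) (Z ψ 0 1 2) := by
  have := charKb (F := F)
  have hn := h.hn
  have H := h.hxZ (a := 0) (b := 1) (c := 2) (ok_of hn (by decide))
  have e1 : En 3 [(0, 1), (1, 2)] := (vl_iff.1 (by decide)).2
  have a1 : ∀ p, 3 ≤ p → p < n → ∀ a b, a < 3 → b < 3 → act (ψ (P n [(0, 1), (1, 2)])) (Z ψ a b p) =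
      Z ψ (ap [(0, 1), (1, 2)] a) (ap [(0, 1), (1, 2)] b) p := fun p h3 hp a b ha hb => by
    rw [h.Z_P hn (by decide) (by omega) (by omega) hp, ap_ge e1 h3]
  have a2 : ∀ p q, 3 ≤ p → p < n → 3 ≤ q → q < n → ∀ a, a < 3 → act (ψ (P n [(0, 1), (1, 2)])) (Z ψ a p q) =
      Z ψ (ap [(0, 1), (1, 2)] a) p q := fun p q h3 hp h3' hq a ha => by
    rw [h.Z_P hn (by decide) (by omega) hp hq, ap_ge e1 h3, ap_ge e1 h3']
  have m1 : ∀ p, 3 ≤ p → p < n → Z ψ 0 1 p ∈ UU (ψ (P n [(0, 1), (1, 2)])) (Z ψ 0 1 2) := fun p h3 hp => by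
    show br _ _ = _
    have h1 : act (ψ (P n [(0, 1), (1, 2)])) (Z ψ 2 0 p) = Z ψ 0 1 p := a1 p h3 hp 2 0 (by omega) (by omega)
    rw [h.r2 ⟨by simp; omega, by simp; omega⟩, a1 p h3 hp 0 1 (by omega) (by omega), ← h1, act_inv, h.sw1 0 2]
    rfl
  have m2 : ∀ p, 3 ≤ p → p < n → Z ψ 1 2 p ∈ UU (ψ (P n [(0, 1), (1, 2)])) (Z ψ 0 1 2) := fun p h3 hp => by
    have h1 := UU_act H.fix (m1 p h3 hp)
    rw [a1 p h3 hp 0 1 (by omega) (by omega)] at h1
    exact h1
  have m3 : ∀ p, 3 ≤ p → p < n → Z ψ 0 2 p ∈ UU (ψ (P n [(0, 1), (1, 2)])) (Z ψ 0 1 2) := fun p h3 hp => by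
    have h1 := UU_act H.fix (m2 p h3 hp)
    rw [a1 p h3 hp 1 2 (by omega) (by omega)] at h1
    rw [← h.sw1 0 2 p]
    exact h1
  have m4 : ∀ p q, p < q → q < n → Z ψ 0 p q ∈ UU (ψ (P n [(0, 1), (1, 2)])) (Z ψ 0 1 2) := fun p q hpq hq => by
    rcases (by omega : p = 0 ∨ (p = 1 ∧ q = 2) ∨ (p = 1 ∧ 3 ≤ q) ∨ p = 2 ∨ 3 ≤ p) with
      rfl | ⟨rfl, rfl⟩ | ⟨rfl, h3⟩ | rfl | h3
    · rw [Z_12]
      exact zero_mem _
    · exact UU_fix H H.fix
    · exact m1 q h3 hq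
    · exact m3 q hpq hq
    · have h1 : Z ψ 0 p q + Z ψ 1 p q + Z ψ 2 p q ∈ UU (ψ (P n [(0, 1), (1, 2)])) (Z ψ 0 1 2) := UU_fix H (by
        rw [act_add, act_add, a2 p q, a2 p q, a2 p q] <;> try omega
        show Z ψ 1 p q + Z ψ 2 p q + Z ψ 0 p q = _
        abel)
      have h2 := add_mem h1 (add_mem (m2 p h3 (by omega)) (m2 q (by omega) hq))
      rwa [show Z ψ 0 p q + Z ψ 1 p q + Z ψ 2 p q + (Z ψ 1 2 p + Z ψ 1 2 q) =
        Z ψ 0 p q + (Z ψ 1 2 p + Z ψ 1 2 q + Z ψ 1 p q + Z ψ 2 p q) by abel,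
        h.coc (by omega) (by omega) (by omega) hq, add_zero] at h2
  refine bt_mem (fun i j => ?_) x y
  by_cases ho : Ok n [0, i, j]
  · rcases lt_trichotomy i j with e | e | e
    · exact m4 i j e (ho.2 j (by simp))
    · rw [e, Z_23]
      exact zero_mem _
    · rw [h.sw2 0 j i]
      exact m4 j i e (ho.2 i (by simp))
  · rw [Z_not ho]
    exact zero_mem _

theorem ac_lam : ∃ (θ : Kb F) (g : G8 (Kb F)), θ ^ 3 = θ + 1 ∧ Ac ψ g (Lm θ) := by
  have := charKb (F := F)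
  have hn := h.hn
  have h2 := CharTwo.two_eq_zero (R := Kb F)
  obtain ⟨c, hc⟩ := Reg5.Cls.exists_prim (F := F) 2 (N := 9) (by norm_num)
  have hω := hc.pow (by norm_num) (show 9 = 3 * 3 by norm_num)
  have h9 : c⁻¹ = c ^ 8 := inv_eq_of_mul_eq_one_right (by rw [← pow_succ', hc.pow_eq_one])
  have o1 : Ok n [0, 1, 2] := ok_of hn (by decide)
  obtain ⟨g, hg⟩ := lam hω (h.cjZ hω o1) (h.hxZ o1) (hc.ne_zero (by norm_num))
  have r1 := om_rel hω
  have r2 := hc.pow_eq_one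
  have hθ : (c + c⁻¹) ^ 3 = c + c⁻¹ + 1 := by
    rw [h9]
    grind
  have e1 : 1 + c * (c ^ 3) ^ 2 + c⁻¹ * c ^ 3 = 1 + (c + c⁻¹) ^ 2 := by
    rw [h9]
    grind
  have e2 : 1 + c * c ^ 3 + c⁻¹ * (c ^ 3) ^ 2 = 1 + (c + c⁻¹) + (c + c⁻¹) ^ 2 := by
    rw [h9]
    grind
  rw [e1, e2, add_assoc] at hg
  generalize c + c⁻¹ = θ at hθ hg
  have p1 := h.ac_P hn (l := [(0, 1), (1, 2)]) (by decide)
  have p2 := h.ac_P hn (l := [(1, 2), (0, 1)]) (by decide)
  rw [← map_inv, P_inv hn (c := [(0, 1), (1, 2)]) (by decide)] at p2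
  have t1 : ∀ x : ℕ → Kb F, (fun i => x (ap [(0, 1), (1, 2)] i)) =
      x + (x 0 + x 1) • (dl _ 0 + dl _ 2) + (x 1 + x 2) • (dl _ 1 + dl _ 2) := fun x => by
    funext i
    rcases (by omega : i = 0 ∨ i = 1 ∨ i = 2 ∨ 3 ≤ i) with rfl | rfl | rfl | h3
    · simp [ap, dl, ← add_assoc, CharTwo.add_self_eq_zero]
    · simp [ap, dl, ← add_assoc, CharTwo.add_self_eq_zero]
    · simp [ap, dl]
      grind
    · rw [ap_out (by simp; omega)]
      simp [dl, show i ≠ 0 by omega, show i ≠ 1 by omega, show i ≠ 2 by omega]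
  have t2 : ∀ x : ℕ → Kb F, (fun i => x (ap [(1, 2), (0, 1)] i)) =
      x + (x 0 + x 2) • (dl _ 0 + dl _ 2) + (x 0 + x 1) • (dl _ 1 + dl _ 2) := fun x => by
    funext i
    rcases (by omega : i = 0 ∨ i = 1 ∨ i = 2 ∨ 3 ≤ i) with rfl | rfl | rfl | h3
    · simp [ap, dl, ← add_assoc, CharTwo.add_self_eq_zero]
    · simp [ap, dl]
      grind
    · simp [ap, dl]
      grind
    · rw [ap_out (by simp; omega)]
      simp [dl, show i ≠ 0 by omega, show i ≠ 1 by omega, show i ≠ 2 by omega]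
  have t3 : ∀ x : ℕ → Kb F, Lm θ x = x + ((1 + θ ^ 2) * (x 0 + x 2) + (1 + θ + θ ^ 2) * (x 0 + x 1)) • (dl _ 0 + dl _ 2) +
      ((1 + θ ^ 2) * (x 0 + x 1) + (1 + θ + θ ^ 2) * (x 1 + x 2)) • (dl _ 1 + dl _ 2) := fun x => by
    funext i
    rw [Lm, congrFun (t1 x) i, congrFun (t2 x) i]
    simp only [Pi.add_apply, Pi.smul_apply, smul_eq_mul]
    linear_combination (1 + θ + θ ^ 2) * x i * h2
  have b1 : bt ψ (dl _ 0 + dl _ 2) (dl _ 0 + dl _ 2) = 0 := by
    rw [add_comm (dl _ 0), h.bt_comm, add_comm (dl _ 2)]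
    nth_rewrite 2 [add_comm]
    rw [h.Z_bt, Z_13] <;> omega
  have b2 : bt ψ (dl _ 1 + dl _ 2) (dl _ 1 + dl _ 2) = 0 := by
    nth_rewrite 2 [add_comm]
    rw [h.Z_bt, Z_13] <;> omega
  have b3 := h.bt_comm (dl _ 1 + dl _ 2) (dl _ 0 + dl _ 2)
  refine ⟨θ, g, hθ, fun x hx => ⟨?_, fun y hy => ?_⟩⟩
  · have s1 : ∑ i : Fin n, x (ap [(0, 1), (1, 2)] i) = 0 := (p1 x hx).1
    have s2 : ∑ i : Fin n, x (ap [(1, 2), (0, 1)] i) = 0 := (p2 x hx).1
    simp only [Ev, Lm, Finset.sum_add_distrib, ← Finset.mul_sum, s1, s2, show ∑ i : Fin n, x i = 0 from hx, mul_zero,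
      add_zero]
  · rw [hg _ (h.mem_UU x y), (p1 x hx).2 y hy, (p2 x hx).2 y hy]
    beta_reduce
    rw [t1, t1, t2, t2, t3, t3]
    generalize dl (Kb F) 0 + dl _ 2 = u at b1 b3
    generalize dl (Kb F) 1 + dl _ 2 = v at b2 b3
    simp only [map_add, map_smul, LinearMap.add_apply, LinearMap.smul_apply, b1, b2, b3]
    match_scalars <;> grind

/-- **an element which acts as a transposition times a reflection** -/
theorem exists_M0 : ∃ g : G8 (Kb F), Ac ψ g M0 := by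
  have := charKb (F := F)
  have hn := h.hn
  obtain ⟨θ, g, hθ, hg⟩ := h.ac_lam
  have key : ∀ w N M, cks N w M = true → (∃ k, Ac ψ k (Ap θ N)) → ∃ k, Ac ψ k (Ap θ M) := by
    intro w
    induction w with
    | nil =>
      intro N M hc hk
      rwa [← beq_iff_eq.1 hc]
    | cons e w ih =>
      rintro N M hc ⟨k, hk⟩
      simp only [cks, Bool.and_eq_true] at hc
      have h1 := (hk.comp (h.ac_P (by omega : 6 ≤ n) (Bool.and_eq_true_iff.1 hc.1).1)).comp hg
      simp only [Ap_step hθ hc.1] at h1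
      exact ih _ _ hc.2 ⟨_, h1⟩
  obtain ⟨k, hk⟩ := key [([(0, 1), (3, 4)], 40564821625228767070833846518111),
    ([(2, 4), (3, 5)], 5070603596261933691149713411032), ([(2, 5), (3, 5)], 40564820402090578670154987888426),
    ([(0, 4), (1, 4), (2, 5), (3, 5)], 1959807350555561475864537786145),
    ([(0, 4), (1, 2), (2, 5), (3, 5)], 15554377045753026149658085890441),
    ([(0, 2), (2, 5), (3, 5), (4, 5)], 235508117406453097924046440665672),
    ([(0, 4), (2, 5)], 250055399199850229623150432522817), ([(0, 3), (1, 5)], 41289190974139818474865288286793)]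
    40564838550125678058396201254913 41289190974139818474865288286793 (by decide +kernel)
    ⟨1, fun x hx => ⟨by rwa [Ap_one], fun y _ => by rw [act_one, Ap_one, Ap_one]⟩⟩
  have h1 := hk.comp (h.ac_P (by omega : 6 ≤ n) (l := [(0, 3), (1, 4), (3, 4), (4, 5)]) (by decide))
  rw [funext (Ap_last (θ := θ))] at h1
  exact ⟨_, h1⟩

end HC

end Cfsg.Agent.E8A.TwoH
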